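import Mathlib
import Cfsg.Agent.Eq.Def_Solvable
import Cfsg.Agent.BaerSuzuki.Basic

/-!
Transvections in a linear group over a prime field: elementary operations, the unipotent stabiliser of
a chain, and the existence of opposite pairs when `O_p = 1`.
-/

set_option autoImplicit false

namespace CfsgLib.McLaughlin

open Module

variable {p : ℕ} [Fact p.Prime] {V : Type*} [AddCommGroup V] [Module (ZMod p) V]
  {H : Subgroup (V ≃ₗ[ZMod p] V)}

/-- The transvection `x ↦ x + φ x • a` lies in `H`. -/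
def Tr (H : Subgroup (V ≃ₗ[ZMod p] V)) (a : V) (φ : Dual (ZMod p) V) : Prop :=
  φ a = 0 ∧ ∃ g ∈ H, ∀ x, g x = x + φ x • a

/-- The transvections of `H`. -/
def trSet (H : Subgroup (V ≃ₗ[ZMod p] V)) : Set (V ≃ₗ[ZMod p] V) :=
  {g | g ∈ H ∧ ∃ (a : V) (φ : Dual (ZMod p) V), φ a = 0 ∧ ∀ x, g x = x + φ x • a}

namespace Tr

variable {a b : V} {φ ψ : Dual (ZMod p) V}

theorem mem_trSet {g : V ≃ₗ[ZMod p] V} (hg : g ∈ H) (h0 : φ a = 0) (h : ∀ x, g x = x + φ x • a) :
    g ∈ trSet H :=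
  ⟨hg, a, φ, h0, h⟩

theorem transvection_mem (h : Tr H a φ) : LinearEquiv.transvection h.1 ∈ H := by
  obtain ⟨g, hg, hx⟩ := h.2
  convert hg using 1
  ext x
  rw [hx x, LinearEquiv.transvection.apply]

theorem of_mem (h0 : φ a = 0) (h : LinearEquiv.transvection h0 ∈ H) : Tr H a φ :=
  ⟨h0, _, h, fun x => LinearEquiv.transvection.apply h0 x⟩

theorem congr_map (h : Tr H a φ) (h0 : ψ b = 0) (he : ∀ x, φ x • a = ψ x • b) : Tr H b ψ := by
  obtain ⟨-, g, hg, hx⟩ := h
  exact ⟨h0, g, hg, fun x => by rw [hx x, he x]⟩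

theorem zero_left (φ : Dual (ZMod p) V) : Tr H 0 φ :=
  ⟨map_zero φ, 1, one_mem H, fun x => by simp⟩

theorem zero_right (a : V) : Tr H a 0 :=
  ⟨rfl, 1, one_mem H, fun x => by simp⟩

theorem add_right (h : Tr H a φ) (h' : Tr H a ψ) : Tr H a (φ + ψ) := by
  obtain ⟨h0, g, hg, hx⟩ := h
  obtain ⟨h0', g', hg', hx'⟩ := h'
  refine ⟨by simp [h0, h0'], g * g', mul_mem hg hg', fun x => ?_⟩
  rw [LinearEquiv.mul_apply, hx', hx]
  simp [h0]
  module

theorem add_left (h : Tr H a φ) (h' : Tr H b φ) : Tr H (a + b) φ := by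
  obtain ⟨h0, g, hg, hx⟩ := h
  obtain ⟨h0', g', hg', hx'⟩ := h'
  refine ⟨by simp [h0, h0'], g * g', mul_mem hg hg', fun x => ?_⟩
  rw [LinearEquiv.mul_apply, hx', hx]
  simp [h0']
  module

theorem smul_right (h : Tr H a φ) (c : ZMod p) : Tr H a (c • φ) := by
  have h' : ∀ n : ℕ, Tr H a ((n : ZMod p) • φ) := fun n => by
    induction n with
    | zero => simpa using zero_right a
    | succ n ih => rw [Nat.cast_succ, add_smul, one_smul]; exact ih.add_right h
  simpa using h' c.val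

theorem smul_left (h : Tr H a φ) (c : ZMod p) : Tr H (c • a) φ :=
  (h.smul_right c).congr_map (by simp [h.1]) fun x => by simp [smul_smul, mul_comm]

theorem sub_right (h : Tr H a φ) (h' : Tr H a ψ) : Tr H a (φ - ψ) := by
  convert h.add_right (h'.smul_right (-1)) using 1
  ext v
  simp [sub_eq_add_neg]

theorem sub_left (h : Tr H a φ) (h' : Tr H b φ) : Tr H (a - b) φ := by
  have := h.add_left (h'.smul_left (-1))
  rwa [neg_one_smul, ← sub_eq_add_neg] at this

theorem conj (h : Tr H a φ) {g : V ≃ₗ[ZMod p] V} (hg : g ∈ H) :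
    Tr H (g a) (φ.comp g.symm.toLinearMap) := by
  obtain ⟨h0, t, ht, hx⟩ := h
  refine ⟨by simpa using h0, g * t * g⁻¹, mul_mem (mul_mem hg ht) (inv_mem hg), fun x => ?_⟩
  change g (t (g.symm x)) = _
  rw [hx, map_add, map_smul, LinearEquiv.apply_symm_apply]
  rfl

theorem conj_tr {α β : Dual (ZMod p) V} (hx : Tr H a α) (hy : Tr H b β) :
    Tr H (b + α b • a) (β - β a • α) := by
  obtain ⟨h0, g, hg, hgx⟩ := hx
  have hinv : ∀ v, g.symm v = v - α v • a := fun v => by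
    rw [LinearEquiv.symm_apply_eq, hgx]
    simp [h0]
  have h := hy.conj hg
  rw [hgx] at h
  convert h using 1
  ext v
  simp [hinv]
  ring

/-- A one-sided pair gives the transvection with the mixed parameters. -/
theorem comm {α β : Dual (ZMod p) V} (hx : Tr H a α) (hy : Tr H b β) (h1 : α b = 0) (h2 : β a ≠ 0) :
    Tr H b α := by
  have h := hx.conj_tr hy
  rw [h1, zero_smul, add_zero] at h
  have h' := (hy.sub_right h).smul_right (β a)⁻¹
  simpa [smul_smul, inv_mul_cancel₀ h2] using h'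

end Tr

/-- The automorphisms acting trivially on the factors of `⊥ ≤ U₁ ≤ U₂ ≤ ⊤`. -/
def chainStab (U₁ U₂ : Submodule (ZMod p) V) (hle : U₁ ≤ U₂) : Subgroup (V ≃ₗ[ZMod p] V) where
  carrier := {g | (∀ v, g v - v ∈ U₂) ∧ (∀ u ∈ U₂, g u - u ∈ U₁) ∧ ∀ u ∈ U₁, g u = u}
  one_mem' := ⟨fun v => by simp, fun u _ => by simp, fun u _ => rfl⟩
  mul_mem' := by
    rintro g h ⟨g1, g2, g3⟩ ⟨h1, h2, h3⟩
    refine ⟨fun v => ?_, fun u hu => ?_, fun u hu => ?_⟩
    · have e : (g * h) v - v = (g (h v - v) - (h v - v)) + (h v - v) + (g v - v) := by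
        rw [LinearEquiv.mul_apply, map_sub]; abel
      rw [e]
      exact add_mem (add_mem (hle (g2 _ (h1 v))) (h1 v)) (g1 v)
    · have e : (g * h) u - u = g (h u - u) + (g u - u) := by
        rw [LinearEquiv.mul_apply, map_sub]; abel
      rw [e, g3 _ (h2 u hu)]
      exact add_mem (h2 u hu) (g2 u hu)
    · rw [LinearEquiv.mul_apply, h3 u hu, g3 u hu]
  inv_mem' := by
    rintro g ⟨g1, g2, g3⟩
    have e : ∀ v, g⁻¹ v - v = -(g (g⁻¹ v) - g⁻¹ v) := fun v => by
      rw [show g (g⁻¹ v) = v from LinearEquiv.apply_symm_apply g v]; abel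
    refine ⟨fun v => e v ▸ neg_mem (g1 _), fun u hu => ?_, fun u hu => ?_⟩
    · have hw : g⁻¹ u ∈ U₂ := by
        have h := add_mem hu (e u ▸ neg_mem (g1 (g⁻¹ u)) : g⁻¹ u - u ∈ U₂)
        simpa using h
      exact e u ▸ neg_mem (g2 _ hw)
    · conv_lhs => rw [← g3 u hu]
      exact LinearEquiv.symm_apply_apply g u

theorem isPGroup_chainStab (hp : p ≠ 2) (U₁ U₂ : Submodule (ZMod p) V) (hle : U₁ ≤ U₂) :
    IsPGroup p (chainStab U₁ U₂ hle) := by
  rintro ⟨g, g1, g2, g3⟩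
  refine ⟨1, Subtype.ext ?_⟩
  rw [pow_one, SubmonoidClass.coe_pow]
  ext v
  have hfix : g (g (g v - v) - (g v - v)) = g (g v - v) - (g v - v) := g3 _ (g2 _ (g1 v))
  have key : ∀ k : ℕ, (g ^ k) v =
      v + k • (g v - v) + k.choose 2 • (g (g v - v) - (g v - v)) := by
    intro k
    induction k with
    | zero => simp
    | succ k ih =>
      rw [pow_succ', LinearEquiv.mul_apply, ih, map_add, map_add, map_nsmul, map_nsmul, hfix,
        Nat.choose_succ_succ, Nat.choose_one_right, succ_nsmul, add_nsmul]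
      module
  have hp' : p.Prime := Fact.out
  obtain ⟨m, hm⟩ : p ∣ p.choose 2 :=
    hp'.dvd_choose_self (by norm_num) (lt_of_le_of_ne hp'.two_le (Ne.symm hp))
  rw [key, hm, mul_nsmul]
  simp [← Nat.cast_smul_eq_nsmul (ZMod p)]

/-- The hypotheses on the group. -/
structure Good (H : Subgroup (V ≃ₗ[ZMod p] V)) : Prop where
  odd : p ≠ 2
  core : Cfsg.pCore p H = ⊥
  gen : H ≤ Subgroup.closure (trSet H)

theorem Good.invariant (hG : Good H) {U : Submodule (ZMod p) V}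
    (hU : ∀ a φ, Tr H a φ → ∀ u ∈ U, φ u • a ∈ U) : ∀ h ∈ H, ∀ u ∈ U, h u ∈ U := by
  suffices key : ∀ h ∈ Subgroup.closure (trSet H), ∀ u ∈ U, h u ∈ U ∧ h⁻¹ u ∈ U from
    fun h hh u hu => (key h (hG.gen hh) u hu).1
  intro h hh
  induction hh using Subgroup.closure_induction with
  | mem t ht =>
    obtain ⟨htH, a, φ, h0, hx⟩ := ht
    intro u hu
    have hua := hU a φ ⟨h0, t, htH, hx⟩ u hu
    refine ⟨hx u ▸ add_mem hu hua, ?_⟩
    have : t⁻¹ u = u - φ u • a := by
      change t.symm u = _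
      rw [LinearEquiv.symm_apply_eq, hx]
      simp [h0]
    exact this ▸ sub_mem hu hua
  | one => exact fun u hu => ⟨hu, hu⟩
  | mul x y _ _ h1 h2 =>
    exact fun u hu => ⟨(h1 _ (h2 u hu).1).1, by rw [mul_inv_rev]; exact (h2 _ (h1 u hu).2).2⟩
  | inv x _ h1 => exact fun u hu => ⟨(h1 u hu).2, by rw [inv_inv]; exact (h1 u hu).1⟩

/-- Elements of `H` acting trivially on the factors of an invariant chain are trivial. -/
theorem Good.eq_one (hG : Good H) {U₁ U₂ : Submodule (ZMod p) V} (hle : U₁ ≤ U₂)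
    (h1 : ∀ h ∈ H, ∀ u ∈ U₁, h u ∈ U₁) (h2 : ∀ h ∈ H, ∀ u ∈ U₂, h u ∈ U₂)
    {g : V ≃ₗ[ZMod p] V} (hg : g ∈ H) (hgs : g ∈ chainStab U₁ U₂ hle) : g = 1 := by
  set N : Subgroup H := (chainStab U₁ U₂ hle).comap H.subtype with hN
  have hn : N.Normal := by
    refine ⟨fun n hn h => ?_⟩
    obtain ⟨n1, n2, n3⟩ := hn
    have e : ∀ v, ((h * n * h⁻¹ : H) : V ≃ₗ[ZMod p] V) v - v =
        (h : V ≃ₗ[ZMod p] V) ((n : V ≃ₗ[ZMod p] V) ((h : V ≃ₗ[ZMod p] V).symm v) -
          (h : V ≃ₗ[ZMod p] V).symm v) := fun v => by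
      rw [map_sub, LinearEquiv.apply_symm_apply]
      rfl
    have hinv : ∀ U : Submodule (ZMod p) V, (∀ k ∈ H, ∀ u ∈ U, k u ∈ U) → ∀ u ∈ U,
        (h : V ≃ₗ[ZMod p] V).symm u ∈ U := fun U hU u hu => hU _ (inv_mem h.2) u hu
    refine ⟨fun v => e v ▸ h2 _ h.2 _ (n1 _), fun u hu => e u ▸ h1 _ h.2 _ (n2 _ (hinv _ h2 u hu)),
      fun u hu => ?_⟩
    rw [← sub_eq_zero]
    exact (e u).trans (by
      rw [show ((n : V ≃ₗ[ZMod p] V) ((h : V ≃ₗ[ZMod p] V).symm u)) = _ from n3 _ (hinv _ h1 u hu),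
        sub_self, map_zero])
  have hle' : N ≤ Cfsg.pCore p H :=
    CfsgLib.BaerSuzuki.normal_pgroup_le_pCore hn
      ((isPGroup_chainStab hG.odd U₁ U₂ hle).comap_of_injective H.subtype H.subtype_injective)
  rw [hG.core] at hle'
  exact congrArg Subtype.val (Subgroup.mem_bot.1 (hle' (show (⟨g, hg⟩ : H) ∈ N from hgs)))

/-- A transvection with centre in an invariant subspace on which it is trivial is trivial. -/
theorem Good.tr_eq_zero (hG : Good H) {U : Submodule (ZMod p) V}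
    (hU : ∀ h ∈ H, ∀ u ∈ U, h u ∈ U) {a : V} {φ : Dual (ZMod p) V} (h : Tr H a φ) (ha : a ∈ U)
    (hφ : ∀ u ∈ U, φ u = 0) (v : V) : φ v • a = 0 := by
  obtain ⟨-, g, hg, hx⟩ := h
  have h1 : g = 1 := hG.eq_one (U₁ := ⊥) (U₂ := U) bot_le
    (fun k _ u hu => by simp [(Submodule.mem_bot _).1 hu]) hU hg
    ⟨fun v => by simpa [hx] using U.smul_mem _ ha, fun u hu => by simp [hx, hφ u hu],
      fun u hu => by simp [(Submodule.mem_bot _).1 hu]⟩
  have h2 := hx v
  rw [h1] at h2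
  exact left_eq_add.1 h2

/-- Every nontrivial transvection of `H` has an opposite one. -/
theorem Good.exists_opposite [Finite V] (hG : Good H) {a : V} {α : Dual (ZMod p) V}
    (h : Tr H a α) (ha : a ≠ 0) (hα : α ≠ 0) :
    ∃ (b : V) (β : Dual (ZMod p) V), Tr H b β ∧ α b ≠ 0 ∧ β a ≠ 0 := by
  by_contra hcon
  push Not at hcon
  obtain ⟨h0, g, hg, hgx⟩ := h
  haveI : Finite (V ≃ₗ[ZMod p] V) :=
    Finite.of_injective (fun e => (e : V → V)) DFunLike.coe_injective
  have key : (⟨g, hg⟩ : H) ∈ Cfsg.pCore p H := by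
    refine CfsgLib.BaerSuzuki.mem_pCore _ fun h => ?_
    set b := (h : V ≃ₗ[ZMod p] V) a with hb
    set β := α.comp (h : V ≃ₗ[ZMod p] V).symm.toLinearMap with hβ
    set y : V ≃ₗ[ZMod p] V := h * g * h⁻¹ with hy
    have hyH : y ∈ H := mul_mem (mul_mem h.2 hg) (inv_mem h.2)
    have hb0 : β b = 0 := by simp [hb, hβ, h0]
    have hyx : ∀ v, y v = v + β v • b := fun v => by
      change (h : V ≃ₗ[ZMod p] V) (g ((h : V ≃ₗ[ZMod p] V).symm v)) = _
      rw [hgx, map_add, map_smul, LinearEquiv.apply_symm_apply]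
      rfl
    have pair : ∀ (x z : V ≃ₗ[ZMod p] V) (c d : V) (γ δ : Dual (ZMod p) V),
        (∀ v, x v = v + γ v • c) → (∀ v, z v = v + δ v • d) → γ c = 0 → δ d = 0 → δ c = 0 →
        x ∈ chainStab (Submodule.span (ZMod p) {c}) (Submodule.span (ZMod p) {c, d})
            (Submodule.span_mono (by simp)) ∧
          z ∈ chainStab (Submodule.span (ZMod p) {c}) (Submodule.span (ZMod p) {c, d})
            (Submodule.span_mono (by simp)) := by
      intro x z c d γ δ hx hz hγ hδ hδc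
      constructor
      · refine ⟨fun v => ?_, fun u _ => ?_, fun u hu => ?_⟩
        · rw [hx, add_sub_cancel_left]
          exact Submodule.smul_mem _ _ (Submodule.subset_span (by simp))
        · rw [hx, add_sub_cancel_left]
          exact Submodule.smul_mem _ _ (Submodule.subset_span rfl)
        · obtain ⟨k, rfl⟩ := Submodule.mem_span_singleton.1 hu
          simp [hx, hγ]
      · refine ⟨fun v => ?_, fun u hu => ?_, fun u hu => ?_⟩
        · rw [hz, add_sub_cancel_left]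
          exact Submodule.smul_mem _ _ (Submodule.subset_span (by simp))
        · obtain ⟨k, l, rfl⟩ := Submodule.mem_span_pair.1 hu
          simp [hz, hδ, hδc]
        · obtain ⟨k, rfl⟩ := Submodule.mem_span_singleton.1 hu
          simp [hz, hδc]
    have hsub : ∀ (U₁ U₂ : Submodule (ZMod p) V) (hle : U₁ ≤ U₂), g ∈ chainStab U₁ U₂ hle →
        y ∈ chainStab U₁ U₂ hle → IsPGroup p
          ↥(Subgroup.closure ({(⟨g, hg⟩ : H), h * ⟨g, hg⟩ * h⁻¹} : Set H)) := by
      intro U₁ U₂ hle h1 h2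
      refine IsPGroup.to_le ((isPGroup_chainStab hG.odd U₁ U₂ hle).comap_of_injective H.subtype
        H.subtype_injective) ((Subgroup.closure_le _).2 ?_)
      rintro z (rfl | rfl)
      exacts [h1, h2]
    by_cases h1 : β a = 0
    · obtain ⟨u, v⟩ := pair g y a b α β hgx hyx h0 hb0 h1
      exact hsub _ _ _ u v
    · have h2 : α b = 0 := by
        by_contra h2
        exact h1 (hcon b β ⟨hb0, y, hyH, hyx⟩ h2)
      obtain ⟨u, v⟩ := pair y g b a β α hyx hgx hb0 h0 h2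
      exact hsub _ _ _ v u
  rw [hG.core, Subgroup.mem_bot] at key
  refine hα (LinearMap.ext fun v => ?_)
  have h2 := hgx v
  rw [show g = 1 from congrArg Subtype.val key] at h2
  exact (smul_eq_zero.1 (left_eq_add.1 h2)).resolve_right ha

end CfsgLib.McLaughlin
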