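import Mathlib
import Cfsg.Agent.McLaughlin.Basic

/-!
Standard subgroups: a decomposition `V = W ⊕ A` such that `H` contains all transvections of `SL(W)`.
When it cannot be enlarged, no transvection of `H` mixes `W` and `A` one-sidedly.
-/

set_option autoImplicit false

namespace CfsgLib.McLaughlin

open Module Submodule

variable {p : ℕ} [Fact p.Prime] {V : Type*} [AddCommGroup V] [Module (ZMod p) V]
  {H : Subgroup (V ≃ₗ[ZMod p] V)}

/-- `φ` vanishes on `U`. -/
def Kills (U : Submodule (ZMod p) V) (φ : Dual (ZMod p) V) : Prop := ∀ v ∈ U, φ v = 0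

/-- A complemented pair with all transvections of `SL(W)` in `H`. -/
structure Std (H : Subgroup (V ≃ₗ[ZMod p] V)) (W A : Submodule (ZMod p) V) : Prop where
  compl : IsCompl W A
  two : 2 ≤ finrank (ZMod p) W
  sl : ∀ w ∈ W, ∀ φ, Kills A φ → φ w = 0 → Tr H w φ

theorem exists_kills {U : Submodule (ZMod p) V} {x : V} (hx : x ∉ U) :
    ∃ φ : Dual (ZMod p) V, Kills U φ ∧ φ x = 1 := by
  obtain ⟨f, hf, hle⟩ := U.exists_le_ker_of_notMem hx
  refine ⟨(f x)⁻¹ • f, fun v hv => ?_, by simp [hf]⟩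
  simp [LinearMap.mem_ker.1 (hle hv)]

theorem exists_not_mem_span {U : Submodule (ZMod p) V} (hU : 2 ≤ finrank (ZMod p) U) (x : V) :
    ∃ u ∈ U, u ∉ span (ZMod p) {x} := by
  by_contra h
  push Not at h
  have h1 : finrank (ZMod p) U ≤ finrank (ZMod p) (span (ZMod p) {x}) := Submodule.finrank_mono h
  have h2 : finrank (ZMod p) (span (ZMod p) {x}) ≤ 1 := by
    simpa using finrank_span_le_card ({x} : Set V)
  omega

namespace Std

variable {W A : Submodule (ZMod p) V} (hS : Std H W A)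
include hS

/-- The projection on `W` along `A`. -/
noncomputable def π : V →ₗ[ZMod p] V := W.projection A hS.compl

theorem π_mem (v : V) : hS.π v ∈ W := projection_apply_mem hS.compl v
theorem sub_π_mem (v : V) : v - hS.π v ∈ A := sub_projection_mem hS.compl v
theorem π_of_mem {v : V} (hv : v ∈ W) : hS.π v = v := projection_apply_of_mem_left hS.compl hv
theorem π_of_mem_right {v : V} (hv : v ∈ A) : hS.π v = 0 :=
  (projection_apply_eq_zero_iff hS.compl).2 hv

theorem kills_comp (φ : Dual (ZMod p) V) : Kills A (φ.comp hS.π) := fun v hv => by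
  simp [hS.π_of_mem_right hv]

theorem kills_sub (φ : Dual (ZMod p) V) : Kills W (φ - φ.comp hS.π) := fun v hv => by
  simp [hS.π_of_mem hv]

theorem eq_comp {φ : Dual (ZMod p) V} (h : Kills A φ) : φ.comp hS.π = φ := by
  ext v
  have h1 := h _ (hS.sub_π_mem v)
  rw [map_sub, sub_eq_zero] at h1
  exact h1.symm

theorem comp_eq_zero {φ : Dual (ZMod p) V} (h : Kills W φ) : φ.comp hS.π = 0 := by
  ext v
  exact h _ (hS.π_mem v)

theorem ne_bot : W ≠ ⊥ := by
  intro h
  have h2 := hS.two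
  rw [h, finrank_bot] at h2
  omega

theorem exists_ne : ∃ w ∈ W, w ≠ 0 := (Submodule.ne_bot_iff W).1 hS.ne_bot

/-- Functionals `ψ` killing `W` with `T(w, ψ) ∈ H` for all `w ∈ W`. -/
def Fd (_ : Std H W A) (ψ : Dual (ZMod p) V) : Prop := Kills W ψ ∧ ∀ w ∈ W, Tr H w ψ

/-- Vectors `e ∈ A` with `T(e, φ) ∈ H` for all `φ` killing `A`. -/
def E (_ : Std H W A) (e : V) : Prop := e ∈ A ∧ ∀ φ, Kills A φ → Tr H e φ

theorem fd_of_tr {w₀ : V} {ψ : Dual (ZMod p) V} (hw₀ : w₀ ∈ W) (h0 : w₀ ≠ 0) (hψ : Kills W ψ)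
    (h : Tr H w₀ ψ) : hS.Fd ψ := by
  refine ⟨hψ, fun w hw => ?_⟩
  by_cases hc : w ∈ span (ZMod p) {w₀}
  · obtain ⟨c, rfl⟩ := mem_span_singleton.1 hc
    exact h.smul_left c
  · have hd : w - w₀ ∈ W := sub_mem hw hw₀
    have hn : w₀ ∉ A ⊔ span (ZMod p) {w - w₀} := by
      intro hm
      obtain ⟨a, ha, r, hr, he⟩ := mem_sup.1 hm
      obtain ⟨c, rfl⟩ := mem_span_singleton.1 hr
      have haW : a ∈ W := by rw [eq_sub_of_add_eq he]; exact sub_mem hw₀ (W.smul_mem c hd)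
      rw [Submodule.disjoint_def.1 hS.compl.disjoint a haW ha, zero_add] at he
      rcases eq_or_ne c 0 with rfl | hc0
      · exact h0 (by rw [← he, zero_smul])
      · refine hc (mem_span_singleton.2 ⟨c⁻¹ + 1, ?_⟩)
        rw [add_smul, one_smul]
        conv_lhs => arg 1; rw [← he]
        rw [smul_smul, inv_mul_cancel₀ hc0, one_smul, sub_add_cancel]
    obtain ⟨φ, hφ, hφ0⟩ := exists_kills hn
    have hx := hS.sl (w - w₀) hd φ (fun v hv => hφ v (mem_sup_left hv))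
      (hφ _ (mem_sup_right (subset_span rfl)))
    have h2 := hx.conj_tr h
    rw [hφ0, one_smul, add_sub_cancel, hψ _ hd, zero_smul, sub_zero] at h2
    exact h2

theorem e_of_tr {e : V} {φ₀ : Dual (ZMod p) V} (he : e ∈ A) (hφ₀ : Kills A φ₀) (h0 : φ₀ ≠ 0)
    (h : Tr H e φ₀) : hS.E e := by
  refine ⟨he, fun φ hφ => ?_⟩
  by_cases hc : ∃ c : ZMod p, φ = c • φ₀
  · obtain ⟨c, rfl⟩ := hc
    exact h.smul_right c
  obtain ⟨z, hz, hz1, hz2⟩ : ∃ z ∈ W, (φ - φ₀) z = 0 ∧ φ₀ z = -1 := by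
    by_contra hcon
    push Not at hcon
    have hall : ∀ z ∈ W, (φ - φ₀) z = 0 → φ₀ z = 0 := by
      intro z hz h1
      by_contra h2
      exact hcon (-(φ₀ z)⁻¹ • z) (W.smul_mem _ hz) (by rw [map_smul, h1, smul_zero])
        (by simp [map_smul, h2])
    apply hc
    by_cases h1 : ∃ z₁ ∈ W, (φ - φ₀) z₁ ≠ 0
    · obtain ⟨z₁, hz₁, hne⟩ := h1
      have hk : φ₀ = (φ₀ z₁ / (φ - φ₀) z₁) • (φ - φ₀) := by
        ext v
        have h3 := hall (hS.π v - ((φ - φ₀) (hS.π v) / (φ - φ₀) z₁) • z₁)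
          (sub_mem (hS.π_mem v) (W.smul_mem _ hz₁)) (by
            rw [map_sub, map_smul, smul_eq_mul, div_mul_cancel₀ _ hne, sub_self])
        rw [map_sub, map_smul, smul_eq_mul, sub_eq_zero] at h3
        rw [← LinearMap.congr_fun (hS.eq_comp hφ₀) v]
        rw [LinearMap.smul_apply, smul_eq_mul,
          ← LinearMap.congr_fun (hS.eq_comp (φ := φ - φ₀) (fun v hv => by simp [hφ v hv, hφ₀ v hv])) v]
        simp only [LinearMap.comp_apply] at h3 ⊢
        rw [h3]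
        ring
      set k := φ₀ z₁ / (φ - φ₀) z₁ with hk'
      have hk0 : k ≠ 0 := fun hh => h0 (by rw [hk, hh, zero_smul])
      refine ⟨k⁻¹ + 1, ?_⟩
      rw [add_smul, one_smul]
      conv_rhs => arg 1; rw [hk]
      rw [smul_smul, inv_mul_cancel₀ hk0, one_smul, sub_add_cancel]
    · push Not at h1
      refine ⟨1, ?_⟩
      rw [one_smul, ← sub_eq_zero, ← hS.eq_comp (φ := φ - φ₀) (fun v hv => by simp [hφ v hv, hφ₀ v hv])]
      ext v
      exact h1 _ (hS.π_mem v)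
  have hx := hS.sl z hz (φ - φ₀) (fun v hv => by simp [hφ v hv, hφ₀ v hv]) hz1
  have h2 := hx.conj_tr h
  rw [show (φ - φ₀) e = 0 by simp [hφ e he, hφ₀ e he], zero_smul, add_zero, hz2] at h2
  convert h2 using 1
  ext v
  simp

/-- If `T(W, ψ)` and `T(e, A°)` are in `H` with `ψ e ≠ 0`, the standard subgroup grows. -/
theorem grow [Module.Finite (ZMod p) V] {e : V} {ψ : Dual (ZMod p) V} (he : hS.E e) (hψ : hS.Fd ψ)
    (hne : ψ e ≠ 0) :
    ∃ W' A', Std H W' A' ∧ W ≤ W' ∧ A' ≤ A ∧ finrank (ZMod p) W < finrank (ZMod p) W' := by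
  obtain ⟨ψ₁, hψ₁, hψe⟩ : ∃ ψ₁, hS.Fd ψ₁ ∧ ψ₁ e = 1 :=
    ⟨(ψ e)⁻¹ • ψ, ⟨fun v hv => by simp [hψ.1 v hv], fun w hw => (hψ.2 w hw).smul_right _⟩,
      by simp [hne]⟩
  have heW : e ∉ W := fun h => by
    rw [hψ₁.1 e h] at hψe
    exact zero_ne_one hψe
  refine ⟨W ⊔ span (ZMod p) {e}, A ⊓ LinearMap.ker ψ₁, ⟨⟨?_, ?_⟩, ?_, ?_⟩, le_sup_left,
    inf_le_left, ?_⟩
  · rw [Submodule.disjoint_def]
    intro x hx hx'
    obtain ⟨w, hw, r, hr, rfl⟩ := mem_sup.1 hx
    obtain ⟨c, rfl⟩ := mem_span_singleton.1 hr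
    have h1 : ψ₁ (w + c • e) = 0 := hx'.2
    rw [map_add, map_smul, hψ₁.1 w hw, hψe, zero_add, smul_eq_mul, mul_one] at h1
    subst h1
    rw [zero_smul, add_zero] at hx' ⊢
    exact Submodule.disjoint_def.1 hS.compl.disjoint w hw hx'.1
  · rw [codisjoint_iff, eq_top_iff]
    intro v _
    have hv : v = (hS.π v + ψ₁ (v - hS.π v) • e) + ((v - hS.π v) - ψ₁ (v - hS.π v) • e) := by abel
    rw [hv]
    refine add_mem (mem_sup_left (add_mem (mem_sup_left (hS.π_mem v))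
      (mem_sup_right (smul_mem _ _ (subset_span rfl))))) (mem_sup_right ⟨?_, ?_⟩)
    · exact sub_mem (hS.sub_π_mem v) (A.smul_mem _ he.1)
    · change ψ₁ _ = 0
      rw [map_sub, map_smul, hψe, smul_eq_mul, mul_one, sub_self]
  · exact hS.two.trans (Submodule.finrank_mono le_sup_left)
  · intro u hu φ' hφ' hu0
    obtain ⟨w, hw, r, hr, rfl⟩ := mem_sup.1 hu
    obtain ⟨c, rfl⟩ := mem_span_singleton.1 hr
    set φ := φ'.comp hS.π with hφdef
    have hφ : Kills A φ := hS.kills_comp φ'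
    have hsplit : φ' = φ + φ' e • ψ₁ := by
      ext v
      have h1 := hφ' ((v - hS.π v) - ψ₁ (v - hS.π v) • e)
        ⟨sub_mem (hS.sub_π_mem v) (A.smul_mem _ he.1), by
          change ψ₁ _ = 0
          rw [map_sub, map_smul, hψe, smul_eq_mul, mul_one, sub_self]⟩
      rw [map_sub, map_sub, map_smul, smul_eq_mul, map_sub, hψ₁.1 _ (hS.π_mem v), sub_zero,
        sub_eq_zero] at h1
      simp only [hφdef, LinearMap.add_apply, LinearMap.comp_apply, LinearMap.smul_apply, smul_eq_mul]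
      linear_combination h1
    rw [hsplit] at hu0 ⊢
    simp only [LinearMap.add_apply, map_add, map_smul, LinearMap.smul_apply, smul_eq_mul,
      hψ₁.1 w hw, hφ e he.1, hψe, mul_zero, mul_one, add_zero, zero_add] at hu0
    rcases eq_or_ne c 0 with rfl | hc
    · rw [zero_smul, add_zero]
      exact (hS.sl w hw φ hφ (by simpa using hu0)).add_right ((hψ₁.2 w hw).smul_right _)
    · have hg := (hψ₁.2 w hw).smul_right c⁻¹
      have hy := (he.2 φ hφ).smul_left c
      have h2 := hg.conj_tr hy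
      have e1 : (c⁻¹ • ψ₁) (c • e) = 1 := by simp [hψe, hc]
      rw [e1, one_smul, add_comm] at h2
      convert h2 using 1
      ext v
      simp only [LinearMap.add_apply, LinearMap.sub_apply, LinearMap.smul_apply, smul_eq_mul]
      field_simp
      linear_combination ψ₁ v * hu0
  · exact Submodule.finrank_lt_finrank_of_lt (lt_of_le_of_ne le_sup_left fun h =>
      heW (h ▸ mem_sup_right (subset_span rfl)))

/-- The standard subgroup cannot be enlarged. -/
def Maximal : Prop := ∀ e ψ, hS.E e → hS.Fd ψ → ψ e = 0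

theorem l1 {a : V} {α : Dual (ZMod p) V} (h : Tr H a α) (h0 : hS.π a ≠ 0)
    (hw : ∃ w ∈ W, w ∉ span (ZMod p) {hS.π a} ∧ α w = 0) : hS.Fd (α - α.comp hS.π) := by
  obtain ⟨w, hw, hspan, hαw⟩ := hw
  have hn : hS.π a ∉ A ⊔ span (ZMod p) {w} := by
    intro hm
    obtain ⟨z, hz, r, hr, he⟩ := mem_sup.1 hm
    obtain ⟨c, rfl⟩ := mem_span_singleton.1 hr
    have hzW : z ∈ W := by rw [eq_sub_of_add_eq he]; exact sub_mem (hS.π_mem a) (W.smul_mem c hw)
    rw [Submodule.disjoint_def.1 hS.compl.disjoint z hzW hz, zero_add] at he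
    refine hspan (mem_span_singleton.2 ⟨c⁻¹, ?_⟩)
    have hc : c ≠ 0 := fun h => h0 (by rw [← he, h, zero_smul])
    rw [← he, smul_smul, inv_mul_cancel₀ hc, one_smul]
  obtain ⟨φ, hφ, hφ0⟩ := exists_kills hn
  have hφA : Kills A φ := fun v hv => hφ v (mem_sup_left hv)
  have hy := hS.sl w hw φ hφA (hφ w (mem_sup_right (subset_span rfl)))
  have hφa : φ a = 1 := by
    rw [← LinearMap.congr_fun (hS.eq_comp hφA) a]; exact hφ0
  have h2 := h.comm hy hαw (by rw [hφa]; exact one_ne_zero)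
  have hw0 : w ≠ 0 := fun h => hspan (h ▸ zero_mem _)
  have h3 := hS.sl w hw (α.comp hS.π) (hS.kills_comp α) (by simp [hS.π_of_mem hw, hαw])
  exact hS.fd_of_tr hw hw0 (hS.kills_sub α) (h2.sub_right h3)

theorem l2 {a : V} {α : Dual (ZMod p) V} (h : Tr H a α)
    (hw : ∃ w ∈ W, α w ≠ 0 ∧ ∃ z ∈ W, z ∉ span (ZMod p) {hS.π a, w}) : hS.E (a - hS.π a) := by
  obtain ⟨w, hw, hαw, z, hz, hzspan⟩ := hw
  have hn : z ∉ A ⊔ span (ZMod p) {hS.π a, w} := by
    intro hm
    obtain ⟨x, hx, r, hr, he⟩ := mem_sup.1 hm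
    obtain ⟨c, d, rfl⟩ := mem_span_pair.1 hr
    have hxW : x ∈ W := by
      rw [eq_sub_of_add_eq he]
      exact sub_mem hz (add_mem (W.smul_mem c (hS.π_mem a)) (W.smul_mem d hw))
    rw [Submodule.disjoint_def.1 hS.compl.disjoint x hxW hx, zero_add] at he
    exact hzspan (he ▸ hr)
  obtain ⟨φ, hφ, hφz⟩ := exists_kills hn
  have hφA : Kills A φ := fun v hv => hφ v (mem_sup_left hv)
  have hy := hS.sl w hw φ hφA (hφ w (mem_sup_right (subset_span (by simp))))
  have hφa : φ (hS.π a) = 0 := hφ _ (mem_sup_right (subset_span (by simp)))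
  have hφa' : φ a = 0 := by rw [← LinearMap.congr_fun (hS.eq_comp hφA) a]; exact hφa
  have h2 := hy.comm h hφa' hαw
  refine hS.e_of_tr (hS.sub_π_mem a) hφA (fun hh => ?_) (h2.sub_left (hS.sl _ (hS.π_mem a) φ hφA hφa))
  rw [hh] at hφz
  exact zero_ne_one hφz

theorem exists_kerW {α : Dual (ZMod p) V} {a₀ : V} (ha₀ : a₀ ∈ W) (h : α a₀ ≠ 0 ∨ Kills W α) :
    ∃ w ∈ W, w ∉ span (ZMod p) {a₀} ∧ α w = 0 := by
  obtain ⟨w, hw, hws⟩ := exists_not_mem_span hS.two a₀
  rcases h with h | h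
  · refine ⟨w - (α w / α a₀) • a₀, sub_mem hw (W.smul_mem _ ha₀), fun hm => hws ?_,
      by simp [h]⟩
    simpa using add_mem hm (smul_mem _ (α w / α a₀) (subset_span (rfl : a₀ ∈ ({a₀} : Set V))))
  · exact ⟨w, hw, hws, h w hw⟩

theorem tr_apply_ne {a : V} {α : Dual (ZMod p) V} (h : Kills W α) : α (hS.π a) = 0 :=
  h _ (hS.π_mem a)

/-- `α` not killing `W`, and `a` having no `W`-part or `α` not killing it: the `A`-part is in `E`. -/
theorem e_of_not_kills {a : V} {α : Dual (ZMod p) V} (h : Tr H a α) (hα : ¬ Kills W α)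
    (ha : hS.π a = 0 ∨ α (hS.π a) ≠ 0) : hS.E (a - hS.π a) := by
  refine hS.l2 h ?_
  rcases ha with ha | ha
  · obtain ⟨w, hw, hne⟩ : ∃ w ∈ W, α w ≠ 0 := by simpa [Kills] using hα
    obtain ⟨z, hz, hzw⟩ := exists_not_mem_span hS.two w
    exact ⟨w, hw, hne, z, hz, by rw [ha, span_insert_zero]; exact hzw⟩
  · obtain ⟨z, hz, hzw⟩ := exists_not_mem_span hS.two (hS.π a)
    exact ⟨hS.π a, hS.π_mem a, ha, z, hz, by simpa using hzw⟩

/-- If `α` does not kill `π a`, the subgroup grows. -/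
theorem apply_π_eq_zero (hM : hS.Maximal) {a : V} {α : Dual (ZMod p) V} (h : Tr H a α) :
    α (hS.π a) = 0 := by
  by_contra hne
  have h0 : hS.π a ≠ 0 := fun h0 => hne (by rw [h0, map_zero])
  have h1 := hS.l1 h h0 (hS.exists_kerW (hS.π_mem a) (Or.inl hne))
  have h2 := hS.e_of_not_kills h (fun hk => hne (hk _ (hS.π_mem a))) (Or.inr hne)
  have h3 := hM _ _ h2 h1
  simp [hS.π_of_mem (hS.π_mem a), h.1] at h3
  exact hne h3

theorem fd_of_kills {a : V} {α : Dual (ZMod p) V} (h : Tr H a α) (hα : Kills W α)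
    (ha : hS.π a ≠ 0) : hS.Fd α := by
  have h1 := hS.l1 h ha (hS.exists_kerW (hS.π_mem a) (Or.inr hα))
  rwa [hS.comp_eq_zero hα, sub_zero] at h1

theorem fd_eq_zero (hG : Good H) (hM : hS.Maximal) {ψ : Dual (ZMod p) V} (hψ : hS.Fd ψ) : ψ = 0 := by
  let U : Submodule (ZMod p) V :=
    { carrier := {v | ∀ ψ, hS.Fd ψ → ψ v = 0}
      add_mem' := fun hx hy ψ h => by simp [hx ψ h, hy ψ h]
      zero_mem' := fun ψ _ => map_zero ψ
      smul_mem' := fun c x hx ψ h => by simp [hx ψ h] }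
  have hWU : W ≤ U := fun w hw ψ h => h.1 w hw
  have hinv : ∀ h ∈ H, ∀ u ∈ U, h u ∈ U := by
    refine hG.invariant fun a α h u hu => ?_
    by_cases hαu : α u = 0
    · simp [hαu]
    refine U.smul_mem _ fun ψ hψ => by_contra fun hne => ?_
    have hψa : ψ (a - hS.π a) = ψ a := by rw [map_sub, hψ.1 _ (hS.π_mem a), sub_zero]
    by_cases hk : Kills W α
    · by_cases ha : hS.π a = 0
      · obtain ⟨w, hw, hw0⟩ := hS.exists_ne
        exact hαu (hu α (hS.fd_of_tr hw hw0 hk (h.comm (hψ.2 w hw) (hk w hw) hne)))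
      · exact hαu (hu α (hS.fd_of_kills h hk ha))
    · by_cases ha : hS.π a = 0
      · exact hne (hψa ▸ hM _ _ (hS.e_of_not_kills h hk (Or.inl ha)) hψ)
      · have h0 := hS.apply_π_eq_zero hM h
        have h1 := h.comm (hψ.2 _ (hS.π_mem a)) h0 hne
        have h2 := h.sub_left h1
        have hπ : hS.π (a - hS.π a) = 0 := by rw [map_sub, hS.π_of_mem (hS.π_mem a), sub_self]
        have h3 := hS.e_of_not_kills h2 hk (Or.inl hπ)
        rw [hπ, sub_zero] at h3
        exact hne (hψa ▸ hM _ _ h3 hψ)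
  obtain ⟨w, hw, hw0⟩ := hS.exists_ne
  ext v
  exact (smul_eq_zero.1 (hG.tr_eq_zero hinv (hψ.2 w hw) (hWU hw) (fun u hu => hu ψ hψ) v)).resolve_right hw0

theorem e_eq_zero (hG : Good H) (hM : hS.Maximal) {e : V} (he : hS.E e) : e = 0 := by
  let U : Submodule (ZMod p) V :=
    { carrier := {v | hS.E v}
      add_mem' := fun hx hy => ⟨add_mem hx.1 hy.1, fun φ h => (hx.2 φ h).add_left (hy.2 φ h)⟩
      zero_mem' := ⟨zero_mem A, fun φ _ => Tr.zero_left φ⟩
      smul_mem' := fun c x hx => ⟨A.smul_mem c hx.1, fun φ h => (hx.2 φ h).smul_left c⟩ }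
  have hinv : ∀ h ∈ H, ∀ u ∈ U, h u ∈ U := by
    refine hG.invariant fun a α h u hu => ?_
    by_cases hαu : α u = 0
    · simp [hαu]
    have hd : ¬ hS.Fd (α - α.comp hS.π) := fun hd => hαu (by
      have h1 := hM u _ hu hd
      simpa [hS.π_of_mem_right hu.1] using h1)
    have h00 := hS.apply_π_eq_zero hM h
    by_cases ha : hS.π a = 0
    · have haA : a ∈ A := by have := hS.sub_π_mem a; rwa [ha, sub_zero] at this
      refine ⟨A.smul_mem _ haA, fun φ hφ => ?_⟩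
      have h1 := h.conj_tr (hu.2 φ hφ)
      rw [hφ a haA, zero_smul, sub_zero] at h1
      have h2 := h1.sub_left (hu.2 φ hφ)
      rwa [add_sub_cancel_left] at h2
    · exfalso
      apply hd
      by_cases hk : Kills W α
      · rw [hS.comp_eq_zero hk, sub_zero]
        exact hS.fd_of_kills h hk ha
      · have h1 := (hu.2 _ (hS.kills_comp α)).comm h (show (α.comp hS.π) a = 0 from h00) hαu
        exact hS.fd_of_kills (h.sub_right h1) (hS.kills_sub α) ha
  obtain ⟨w, hw, hw0⟩ := hS.exists_ne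
  have hwA : w ∉ A := fun h => hw0 (Submodule.disjoint_def.1 hS.compl.disjoint w hw h)
  obtain ⟨φ, hφ, hφw⟩ := exists_kills hwA
  have h1 := hG.tr_eq_zero hinv (he.2 φ hφ) he (fun u hu => hφ u hu.1) w
  rwa [hφw, one_smul] at h1

end Std

end CfsgLib.McLaughlin
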