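import Mathlib
import Cfsg.Agent.McLaughlin.Standard

/-!
Every transvection of a group with `O_p = 1` generated by transvections lies in a block: a decomposition
`V = W ⊕ A` on which `H` has all transvections of `SL(W)` or of some `Sp(W, B)`, all transvections of `H`
being inside the block or trivial on it.
-/

set_option autoImplicit false

namespace CfsgLib.McLaughlin

open Module Submodule

variable {p : ℕ} [Fact p.Prime] {V : Type*} [AddCommGroup V] [Module (ZMod p) V]
  {H : Subgroup (V ≃ₗ[ZMod p] V)}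

/-- Symplectic data on a complemented subspace. -/
structure Symp (H : Subgroup (V ≃ₗ[ZMod p] V)) (W A : Submodule (ZMod p) V)
    (B : V →ₗ[ZMod p] Dual (ZMod p) V) : Prop where
  alt : ∀ w ∈ W, B w w = 0
  nd : ∀ w ∈ W, (∀ v ∈ W, B w v = 0) → w = 0
  kills : ∀ w ∈ W, Kills A (B w)
  tr : ∀ w ∈ W, Tr H w (B w)
  only : ∀ a φ, Tr H a φ → a ∈ W → a ≠ 0 → Kills A φ → ∃ c : ZMod p, φ = c • B a

/-- A block. -/
structure Block (H : Subgroup (V ≃ₗ[ZMod p] V)) (W A : Submodule (ZMod p) V) : Prop where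
  compl : IsCompl W A
  two : 2 ≤ finrank (ZMod p) W
  kind : (∀ w ∈ W, ∀ φ, Kills A φ → φ w = 0 → Tr H w φ) ∨ ∃ B, Symp H W A B
  split : ∀ a φ, Tr H a φ → a ≠ 0 → φ ≠ 0 → (a ∈ W ∧ Kills A φ) ∨ (a ∈ A ∧ Kills W φ)

/-- An opposite pair gives a standard subgroup of dimension two. -/
theorem std_of_opposite {a b : V} {α β : Dual (ZMod p) V} (hx : Tr H a α) (hy : Tr H b β)
    (h1 : α b ≠ 0) (h2 : β a ≠ 0) :
    Std H (span (ZMod p) {a, b}) (LinearMap.ker α ⊓ LinearMap.ker β) := by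
  have hαa := hx.1
  have hβb := hy.1
  refine ⟨⟨?_, ?_⟩, ?_, ?_⟩
  · rw [Submodule.disjoint_def]
    intro v hv hv'
    obtain ⟨c, d, rfl⟩ := mem_span_pair.1 hv
    obtain ⟨e1, e2⟩ := mem_inf.1 hv'
    simp [LinearMap.mem_ker, hαa, hβb, h1, h2] at e1 e2
    simp [e1, e2]
  · rw [codisjoint_iff, eq_top_iff]
    intro v _
    have hv : v = ((β v / β a) • a + (α v / α b) • b) + (v - ((β v / β a) • a + (α v / α b) • b)) := by abel
    rw [hv]
    refine add_mem (mem_sup_left (mem_span_pair.2 ⟨_, _, rfl⟩)) (mem_sup_right (mem_inf.2 ⟨?_, ?_⟩)) <;>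
      simp [LinearMap.mem_ker, hαa, hβb, h1, h2]
  · have hli : LinearIndependent (ZMod p) ![a, b] := by
      rw [LinearIndependent.pair_iff]
      intro s t hst
      have e1 := congrArg α hst
      have e2 := congrArg β hst
      simp [hαa, hβb, h1, h2] at e1 e2
      exact ⟨e2, e1⟩
    have h3 := finrank_span_eq_card hli
    rw [Matrix.range_cons_cons_empty, Fintype.card_fin] at h3
    exact h3.ge
  · intro w hw φ hφ hφw
    obtain ⟨d₁, d₂, rfl⟩ := mem_span_pair.1 hw
    have hdec : φ = (φ b / α b) • α + (φ a / β a) • β := by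
      ext v
      have h3 := hφ (v - ((β v / β a) • a + (α v / α b) • b))
        (mem_inf.2 ⟨by simp [LinearMap.mem_ker, hαa, h1], by simp [LinearMap.mem_ker, hβb, h2]⟩)
      simp only [map_sub, map_add, map_smul, smul_eq_mul] at h3
      simp only [LinearMap.add_apply, LinearMap.smul_apply, smul_eq_mul]
      field_simp at h3 ⊢
      linear_combination h3
    set c₁ := φ b / α b
    set c₂ := φ a / β a
    rw [hdec] at hφw ⊢
    simp [hαa, hβb] at hφw
    rcases eq_or_ne d₂ 0 with rfl | hd2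
    · rcases eq_or_ne d₁ 0 with rfl | hd1
      · simpa using Tr.zero_left (H := H) _
      have hc2 : c₂ = 0 := by simpa [hd1, h2] using hφw
      rw [hc2]
      simpa using (hx.smul_right c₁).smul_left d₁
    · set k := d₁ / (d₂ * α b)
      have h3 := (hx.smul_right k).conj_tr hy
      have h4 := (h3.smul_left d₂).smul_right c₂
      convert h4 using 1
      · simp [k, smul_smul]
        field_simp
        module
      · ext v
        simp [k]
        field_simp
        linear_combination α v * hφw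

namespace Std

variable {W A : Submodule (ZMod p) V} (hS : Std H W A)
include hS

theorem mem_A_of_π {a : V} (h : hS.π a = 0) : a ∈ A := by
  have := hS.sub_π_mem a; rwa [h, sub_zero] at this

theorem mem_W_of_sub {a : V} (h : a - hS.π a = 0) : a ∈ W := by
  rw [sub_eq_zero.1 h]; exact hS.π_mem a

theorem block_of_three (hG : Good H) (hM : hS.Maximal) (h3 : 3 ≤ finrank (ZMod p) W) :
    Block H W A := by
  refine ⟨hS.compl, hS.two, Or.inl hS.sl, fun a α h ha hα => ?_⟩
  by_cases h0 : hS.π a = 0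
  · have haA := hS.mem_A_of_π h0
    refine Or.inr ⟨haA, by_contra fun hk => ha ?_⟩
    have := hS.e_eq_zero hG hM (hS.e_of_not_kills h hk (Or.inl h0))
    rwa [h0, sub_zero] at this
  · have hd : α = α.comp hS.π := by
      rw [← sub_eq_zero]
      refine hS.fd_eq_zero hG hM (hS.l1 h h0 ?_)
      by_contra hcon
      push Not at hcon
      have hle : W ⊓ LinearMap.ker α ≤ span (ZMod p) {hS.π a} := fun w hw =>
        by_contra fun hn => hcon w hw.1 hn hw.2
      have h4 := Submodule.finrank_mono hle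
      have h5 : finrank (ZMod p) (span (ZMod p) {hS.π a}) = 1 := finrank_span_singleton h0
      have h6 : finrank (ZMod p) W ≤ finrank (ZMod p) (W ⊓ LinearMap.ker α : Submodule (ZMod p) V) + 1 := by
        haveI : Module.Finite (ZMod p) W := Module.finite_of_finrank_pos (by omega)
        have h7 := LinearMap.finrank_range_add_finrank_ker (α.domRestrict W)
        have h8 : finrank (ZMod p) (LinearMap.range (α.domRestrict W)) ≤ 1 :=
          (Submodule.finrank_le _).trans (Module.finrank_self (ZMod p)).le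
        have h9 : finrank (ZMod p) (LinearMap.ker (α.domRestrict W)) =
            finrank (ZMod p) (W ⊓ LinearMap.ker α : Submodule (ZMod p) V) := by
          rw [LinearMap.ker_domRestrict, ← Submodule.finrank_map_subtype_eq,
            Submodule.map_comap_subtype]
        omega
      omega
    refine Or.inl ⟨hS.mem_W_of_sub ?_, hd ▸ hS.kills_comp α⟩
    refine hS.e_eq_zero hG hM (hS.l2 h ?_)
    obtain ⟨w, hw, hne⟩ : ∃ w ∈ W, α w ≠ 0 := by
      by_contra hk
      push Not at hk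
      exact hα (by rw [hd, hS.comp_eq_zero hk])
    refine ⟨w, hw, hne, ?_⟩
    by_contra hcon
    push Not at hcon
    have h4 : finrank (ZMod p) W ≤ finrank (ZMod p) (span (ZMod p) ({hS.π a, w} : Set V)) := by
      haveI : Module.Finite (ZMod p) (span (ZMod p) ({hS.π a, w} : Set V)) :=
        Module.Finite.span_of_finite _ (Set.toFinite _)
      exact Submodule.finrank_mono hcon
    have h5 : finrank (ZMod p) (span (ZMod p) ({hS.π a, w} : Set V)) ≤ 2 := by
      classical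
      refine (finrank_span_le_card ({hS.π a, w} : Set V)).trans ?_
      rw [Set.toFinset_insert, Set.toFinset_singleton]
      exact (Finset.card_insert_le _ _).trans (by simp)
    omega

/-- The two-dimensional case: the symplectic block. -/
theorem block_of_two [Module.Finite (ZMod p) V] (hG : Good H) (hM : hS.Maximal) (h2 : finrank (ZMod p) W = 2) :
    ∃ W₁ A₁, W ≤ W₁ ∧ A₁ ≤ A ∧ Block H W₁ A₁ := by
  classical
  -- the determinant form
  let bas := Module.finBasisOfFinrankEq (ZMod p) W h2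
  let c : Fin 2 → Dual (ZMod p) V := fun i => (bas.coord i).comp (W.projectionOnto A hS.compl)
  have hcA : ∀ i, Kills A (c i) := fun i v hv => by
    simp [c, (projectionOnto_apply_eq_zero_iff hS.compl).2 hv]
  have hrepr : ∀ w ∈ W, w = c 0 w • (bas 0 : V) + c 1 w • (bas 1 : V) := fun w hw => by
    have h := congrArg Subtype.val (bas.sum_repr ⟨w, hw⟩)
    rw [Fin.sum_univ_two, Submodule.coe_add, Submodule.coe_smul, Submodule.coe_smul] at h
    simp only [c, LinearMap.comp_apply, projectionOnto_apply_of_mem_left hS.compl hw, Module.Basis.coord_apply]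
    exact h.symm
  have hcb : ∀ i j, c i (bas j : V) = if j = i then 1 else 0 := fun i j => by
    simp [c, projectionOnto_apply_of_mem_left hS.compl (bas j).2, Finsupp.single_apply]
  let B : V →ₗ[ZMod p] Dual (ZMod p) V := (c 0).smulRight (c 1) - (c 1).smulRight (c 0)
  have Bap : ∀ x y, B x y = c 0 x * c 1 y - c 1 x * c 0 y := fun x y => by simp [B]
  have Balt : ∀ x, B x x = 0 := fun x => by rw [Bap]; ring
  have Bskew : ∀ x y, B x y = -B y x := fun x y => by rw [Bap, Bap]; ring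
  have BA : ∀ x, Kills A (B x) := fun x v hv => by simp [Bap, hcA 0 v hv, hcA 1 v hv]
  have Beq : ∀ w ∈ W, w ≠ 0 → ∀ φ, Kills A φ → φ w = 0 → ∃ k : ZMod p, φ = k • B w := by
    intro w hw hw0 φ hφ hφw
    have hex : ∀ v, φ v = c 0 v * φ (bas 0 : V) + c 1 v * φ (bas 1 : V) := fun v => by
      rw [← LinearMap.congr_fun (hS.eq_comp hφ) v, LinearMap.comp_apply]
      conv_lhs => rw [hrepr _ (hS.π_mem v)]
      have e : ∀ i, c i (hS.π v) = c i v := fun i => LinearMap.congr_fun (hS.eq_comp (hcA i)) v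
      simp [e]
    rw [hex] at hφw
    have hwc : c 0 w ≠ 0 ∨ c 1 w ≠ 0 := by
      by_contra hh
      push Not at hh
      exact hw0 (by rw [hrepr w hw, hh.1, hh.2, zero_smul, zero_smul, add_zero])
    rcases hwc with h | h
    · refine ⟨φ (bas 1 : V) / c 0 w, LinearMap.ext fun v => ?_⟩
      rw [hex v, LinearMap.smul_apply, smul_eq_mul, Bap]
      field_simp
      linear_combination (c 0 v) * hφw
    · refine ⟨-φ (bas 0 : V) / c 1 w, LinearMap.ext fun v => ?_⟩
      rw [hex v, LinearMap.smul_apply, smul_eq_mul, Bap]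
      field_simp
      linear_combination (c 1 v) * hφw
  have Bnd : ∀ w ∈ W, w ≠ 0 → ∃ v ∈ W, B w v ≠ 0 := by
    intro w hw hw0
    by_contra hh
    push Not at hh
    have h0 := hh _ (bas 0).2
    have h1 := hh _ (bas 1).2
    simp [Bap, hcb] at h0 h1
    exact hw0 (by rw [hrepr w hw, h0, h1, zero_smul, zero_smul, add_zero])
  have hBW : ∀ w ∈ W, Tr H w (B w) := fun w hw => hS.sl w hw _ (BA w) (Balt w)
  -- general facts
  have hAeq : ∀ a α, Tr H a α → hS.π a = 0 → a ≠ 0 → Kills W α := by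
    intro a α h h0 ha
    by_contra hk
    have := hS.e_eq_zero hG hM (hS.e_of_not_kills h hk (Or.inl h0))
    exact ha (by rwa [h0, sub_zero] at this)
  have hmix : ∀ a α, Tr H a α → α ≠ 0 → hS.π a ≠ 0 →
      ∃ k : ZMod p, k ≠ 0 ∧ α.comp hS.π = k • B (hS.π a) := by
    intro a α h hα h0
    obtain ⟨k, hk⟩ := Beq _ (hS.π_mem a) h0 _ (hS.kills_comp α) (by
      rw [LinearMap.comp_apply, hS.π_of_mem (hS.π_mem a)]
      exact hS.apply_π_eq_zero hM h)
    refine ⟨k, fun hk0 => ?_, hk⟩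
    have hkW : Kills W α := fun v hv => by
      have := LinearMap.congr_fun hk v
      simpa [hS.π_of_mem hv, hk0] using this
    exact hα (hS.fd_eq_zero hG hM (hS.fd_of_kills h hkW h0))
  -- the mixed transvections
  let M : V → V → Dual (ZMod p) V → Prop := fun w e ψ =>
    w ∈ W ∧ w ≠ 0 ∧ e ∈ A ∧ Kills W ψ ∧ Tr H (w + e) (B w + ψ)
  have hπM : ∀ w e : V, w ∈ W → e ∈ A → hS.π (w + e) = w := fun w e hw he => by
    rw [map_add, hS.π_of_mem hw, hS.π_of_mem_right he, add_zero]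
  have huniq : ∀ w e ψ ψ', M w e ψ → M w e ψ' → ψ = ψ' := by
    rintro w e ψ ψ' ⟨hw, hw0, he, hk, h⟩ ⟨-, -, -, hk', h'⟩
    have h3 := h.sub_right h'
    rw [add_sub_add_left_eq_sub] at h3
    exact sub_eq_zero.1 (hS.fd_eq_zero hG hM (hS.fd_of_kills h3
      (fun v hv => by simp [hk v hv, hk' v hv]) (by rw [hπM w e hw he]; exact hw0)))
  have horb1 : ∀ w e ψ, M w e ψ → ∀ w' ∈ W, w' ≠ 0 → B w' w ≠ 0 → M w' e ψ := by
    rintro w e ψ ⟨hw, hw0, he, hk, h⟩ w' hw' hw'0 hne
    set z := w' - w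
    have hz : z ∈ W := sub_mem hw' hw
    have hBzw : B z w = B w' w := by simp [z, Balt]
    have h3 := ((hBW z hz).smul_right (B z w)⁻¹).conj_tr h
    refine ⟨hw', hw'0, he, hk, ?_⟩
    convert h3 using 1
    · simp only [LinearMap.smul_apply, map_add, smul_eq_mul, BA z e he, add_zero]
      rw [inv_mul_cancel₀ (hBzw ▸ hne), mul_zero, add_zero, one_smul]
      simp [z]
      abel
    · ext v
      have e1 : B w' v = B w v + B z v := by simp [z]
      simp only [LinearMap.sub_apply, LinearMap.add_apply, LinearMap.smul_apply, smul_eq_mul,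
        hk z hz, add_zero, e1]
      rw [show B w z = -B z w from Bskew w z]
      field_simp [hBzw ▸ hne]
      ring
  have horb : ∀ w e ψ, M w e ψ → ∀ w' ∈ W, w' ≠ 0 → M w' e ψ := by
    intro w e ψ h w' hw' hw'0
    by_cases hne : B w' w = 0
    · obtain ⟨z, hz, hzw⟩ := Bnd w h.1 h.2.1
      have hzw' : B z w ≠ 0 := by rw [Bskew, neg_ne_zero]; exact hzw
      have hz0 : z ≠ 0 := fun h0 => hzw (by rw [h0, map_zero])
      refine horb1 z e ψ (horb1 w e ψ h z hz hz0 hzw') w' hw' hw'0 fun h0 => ?_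
      obtain ⟨k, hk⟩ := Beq w' hw' hw'0 (B z) (BA z) (by rw [Bskew, h0, neg_zero])
      refine hzw' ?_
      rw [hk]
      simp [hne]
    · exact horb1 w e ψ h w' hw' hw'0 hne
  have hexB : ∀ w ∈ W, w ≠ 0 → ∀ t : ZMod p, t ≠ 0 → ∃ w' ∈ W, w' ≠ 0 ∧ B w w' = t := by
    intro w hw hw0 t ht
    obtain ⟨v, hv, hne⟩ := Bnd w hw hw0
    refine ⟨(t / B w v) • v, W.smul_mem _ hv, fun h => ?_, by simp [hne]⟩
    rcases smul_eq_zero.1 h with h | h
    · simp [ht, hne] at h
    · exact hne (by rw [h, map_zero])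
  have hanti : ∀ w e ψ w' e' ψ', M w e ψ → M w' e' ψ' → ψ e' + ψ' e = 0 := by
    intro w e ψ w₁ e' ψ' h h'
    by_contra hsum
    obtain ⟨hw, hw0, he, hk, hx⟩ := h
    by_cases ht : ψ e' = 0
    · obtain ⟨-, -, he', hk', hy⟩ := horb _ _ _ h' w hw hw0
      have h1 : (B w + ψ) (w + e') = 0 := by simp [Balt, BA w e' he', hk w hw, ht]
      have h4 := hx.comm hy h1 (by simpa [Balt, BA w e he, hk' w hw, ht] using hsum)
      have h5 := huniq w e' ψ ψ' ⟨hw, hw0, he', hk, h4⟩ ⟨hw, hw0, he', hk', hy⟩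
      have h6 : ψ e = 0 := by
        have := hx.1
        simpa [Balt, BA w e he, hk w hw] using this
      exact hsum (by rw [ht, ← h5, h6, add_zero])
    · obtain ⟨w', hw', hw'0, hB⟩ := hexB w hw hw0 (-ψ e') (neg_ne_zero.2 ht)
      obtain ⟨-, -, he', hk', hy⟩ := horb _ _ _ h' w' hw' hw'0
      have h1 : (B w + ψ) (w' + e') = 0 := by simp [BA w e' he', hk w' hw', hB]
      have h2' : (B w' + ψ') (w + e) ≠ 0 := by
        simp [BA w' e he, hk' w hw, Bskew w' w, hB]
        exact hsum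
      have h4 := hx.comm hy h1 h2'
      have h5 := hS.apply_π_eq_zero hM h4
      rw [hπM w' e' hw' he'] at h5
      simp [hk w' hw', hB, ht] at h5
  obtain ⟨w₀, hw₀, hw₀0⟩ := hS.exists_ne
  have hcomb : ∀ e ψ e' ψ', M w₀ e ψ → M w₀ e' ψ' → ∀ s : ZMod p, M w₀ (e' + s • e) (ψ' + s • ψ) := by
    intro e ψ e' ψ' h h' s
    have hanti' := hanti _ _ _ _ _ _ h h'
    obtain ⟨hw, hw0, he, hk, hx⟩ := h
    obtain ⟨w', hw', hw'0, hbne, hB⟩ : ∃ w' ∈ W, w' ≠ 0 ∧ w' + s • w₀ ≠ 0 ∧ B w₀ w' = s - ψ e' := by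
      by_cases ht : s - ψ e' = 0
      · rw [ht]
        by_cases hs : s = -1
        · refine ⟨(2 : ZMod p) • w₀, W.smul_mem _ hw₀, ?_, ?_, by simp [Balt]⟩
          · refine smul_ne_zero (fun h2' => hG.odd ?_) hw₀0
            have h3 : ((2 : ℕ) : ZMod p) = 0 := by exact_mod_cast h2'
            exact (Nat.prime_dvd_prime_iff_eq Fact.out Nat.prime_two).1 ((CharP.cast_eq_zero_iff (ZMod p) p 2).1 h3)
          · rw [hs, ← add_smul]; norm_num; exact hw₀0
        · refine ⟨w₀, hw₀, hw₀0, ?_, by simp [Balt]⟩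
          intro h0
          have h0' : (1 + s) • w₀ = 0 := by rw [add_smul, one_smul]; exact h0
          exact hs (by linear_combination (smul_eq_zero.1 h0').resolve_right hw₀0)
      · obtain ⟨w', hw', hw'0, hB⟩ := hexB w₀ hw₀ hw₀0 _ ht
        refine ⟨w', hw', hw'0, fun h0 => ht ?_, hB⟩
        rw [← hB, eq_neg_of_add_eq_zero_left h0]
        simp [Balt]
    obtain ⟨-, -, he', hk', hy⟩ := horb _ _ _ h' w' hw' hw'0
    have hαb : (B w₀ + ψ) (w' + e') = s := by
      simp [BA w₀ e' he', hk w' hw', hB]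
    have hβa : (B w' + ψ') (w₀ + e) = -s := by
      simp [BA w' e he, hk' w₀ hw₀, Bskew w' w₀, hB]
      linear_combination hanti'
    have h3 := hx.conj_tr hy
    rw [hαb, hβa] at h3
    refine horb (w' + s • w₀) _ _ ⟨add_mem hw' (W.smul_mem _ hw₀), hbne, add_mem he' (A.smul_mem _ he),
      fun v hv => by simp [hk v hv, hk' v hv], ?_⟩ w₀ hw₀ hw₀0
    convert h3 using 1
    · module
    · ext v; simp; ring
  let E1 : Submodule (ZMod p) V :=
    { carrier := {e | ∃ ψ, M w₀ e ψ}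
      add_mem' := by
        rintro x y ⟨ψ, h⟩ ⟨ψ', h'⟩
        exact ⟨_, by simpa using hcomb _ _ _ _ h' h 1⟩
      zero_mem' := ⟨0, hw₀, hw₀0, zero_mem A, fun v _ => rfl, by simpa using hBW w₀ hw₀⟩
      smul_mem' := by
        rintro s x ⟨ψ, h⟩
        have h0 : M w₀ 0 0 := ⟨hw₀, hw₀0, zero_mem A, fun v _ => rfl, by simpa using hBW w₀ hw₀⟩
        exact ⟨_, by simpa using hcomb _ _ _ _ h h0 s⟩ }
  have hE1A : E1 ≤ A := fun e ⟨_, h⟩ => h.2.2.1
  have hM0 : M w₀ 0 0 := ⟨hw₀, hw₀0, zero_mem A, fun v _ => rfl, by simpa using hBW w₀ hw₀⟩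
  let Ψ : E1 →ₗ[ZMod p] Dual (ZMod p) V :=
    { toFun := fun e => Classical.choose e.2
      map_add' := fun x y => huniq w₀ (x + y : V) _ _ (Classical.choose_spec (x + y).2)
        (by simpa using hcomb _ _ _ _ (Classical.choose_spec y.2) (Classical.choose_spec x.2) 1)
      map_smul' := fun s x => huniq w₀ (s • x : V) _ _ (Classical.choose_spec (s • x).2)
        (by simpa using hcomb _ _ _ _ (Classical.choose_spec x.2) hM0 s) }
  obtain ⟨Ψ', hΨ'⟩ := LinearMap.exists_extend Ψ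
  have hΨM : ∀ e ∈ E1, ∀ w ∈ W, w ≠ 0 → M w e (Ψ' e) := fun e he w hw hw0 => by
    have : Ψ' e = Classical.choose he := LinearMap.congr_fun hΨ' ⟨e, he⟩
    rw [this]
    exact horb _ _ _ (Classical.choose_spec he) w hw hw0
  have hΨk : ∀ e ∈ E1, Kills W (Ψ' e) := fun e he => (hΨM e he w₀ hw₀ hw₀0).2.2.2.1
  have hΨanti : ∀ e ∈ E1, ∀ e' ∈ E1, Ψ' e e' + Ψ' e' e = 0 := fun e he e' he' =>
    hanti _ _ _ _ _ _ (hΨM e he w₀ hw₀ hw₀0) (hΨM e' he' w₀ hw₀ hw₀0)
  have hΨalt : ∀ e ∈ E1, Ψ' e e = 0 := fun e he => by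
    obtain ⟨hw, -, heA, hk, h⟩ := hΨM e he w₀ hw₀ hw₀0
    simpa [Balt, BA w₀ e heA, hk w₀ hw] using h.1
  have hΨinj : ∀ e ∈ E1, Ψ' e = 0 → e = 0 := fun e he h0 => by
    obtain ⟨hw, -, heA, -, h⟩ := hΨM e he w₀ hw₀ hw₀0
    rw [h0, add_zero] at h
    have h3 := h.sub_left (hBW w₀ hw₀)
    rw [add_sub_cancel_left] at h3
    obtain ⟨v, hv, hne⟩ := Bnd w₀ hw₀ hw₀0
    have hk : ¬ Kills W (B w₀) := fun hk => hne (hk v hv)
    by_contra he0
    exact hk (hAeq e _ h3 (hS.π_of_mem_right heA) he0)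
  -- normal form of a mixed transvection
  have hnorm : ∀ a α, Tr H a α → α ≠ 0 → hS.π a ≠ 0 → a - hS.π a ∈ E1 ∧
      ∃ k : ZMod p, k ≠ 0 ∧ α = k • (B (hS.π a) + Ψ' (a - hS.π a)) := by
    intro a α h hα h0
    obtain ⟨k, hk, hk'⟩ := hmix a α h hα h0
    have hMa : M (hS.π a) (a - hS.π a) (k⁻¹ • (α - α.comp hS.π)) := by
      refine ⟨hS.π_mem a, h0, hS.sub_π_mem a, fun v hv => by simp [hS.π_of_mem hv], ?_⟩
      convert h.smul_right k⁻¹ using 1
      · abel
      · rw [smul_sub, hk', smul_smul, inv_mul_cancel₀ hk, one_smul]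
        abel
    have hmem : a - hS.π a ∈ E1 := ⟨_, horb _ _ _ hMa w₀ hw₀ hw₀0⟩
    refine ⟨hmem, k, hk, ?_⟩
    have h3 := huniq _ _ _ _ hMa (hΨM _ hmem _ (hS.π_mem a) h0)
    rw [← h3, smul_add, smul_smul, mul_inv_cancel₀ hk, one_smul, ← hk']
    abel
  -- a transvection inside `A`
  have hcomm : ∀ a α, Tr H a α → hS.π a = 0 → Kills W α → ∀ e ∈ E1,
      e + α e • a ∈ E1 ∧ Ψ' (e + α e • a) = Ψ' e - Ψ' e a • α := by
    intro a α h h0 hk e he
    have haA := hS.mem_A_of_π h0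
    obtain ⟨-, -, heA, hke, hx⟩ := hΨM e he w₀ hw₀ hw₀0
    have h3 := h.conj_tr hx
    have e1 : α (w₀ + e) = α e := by rw [map_add, hk w₀ hw₀, zero_add]
    have e2 : (B w₀ + Ψ' e) a = Ψ' e a := by rw [LinearMap.add_apply, BA w₀ a haA, zero_add]
    rw [e1, e2] at h3
    have hMn : M w₀ (e + α e • a) (Ψ' e - Ψ' e a • α) := by
      refine ⟨hw₀, hw₀0, add_mem heA (A.smul_mem _ haA), fun v hv => by simp [hke v hv, hk v hv], ?_⟩
      rwa [← add_assoc, add_sub_assoc']
    exact ⟨⟨_, hMn⟩, huniq _ _ _ _ (hΨM _ ⟨_, hMn⟩ w₀ hw₀ hw₀0) hMn⟩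
  -- inside `A` and meeting `E1`
  have hmeet : ∀ a α, Tr H a α → hS.π a = 0 → Kills W α → a ≠ 0 → ∀ e ∈ E1, α e ≠ 0 →
      a ∈ E1 ∧ Ψ' e a ≠ 0 ∧ α = -(α e / Ψ' e a) • Ψ' a := by
    intro a α h h0 hk ha e he hne
    obtain ⟨hm, heq⟩ := hcomm a α h h0 hk e he
    have haE : a ∈ E1 := by
      have h3 := E1.smul_mem (α e)⁻¹ (sub_mem hm he)
      rwa [add_sub_cancel_left, smul_smul, inv_mul_cancel₀ hne, one_smul] at h3
    rw [map_add, map_smul, sub_eq_add_neg] at heq
    have h4 : α e • Ψ' a = -(Ψ' e a • α) := add_left_cancel heq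
    have hea : Ψ' e a ≠ 0 := fun hz => by
      rw [hz, zero_smul, neg_zero] at h4
      exact ha (hΨinj a haE ((smul_eq_zero.1 h4).resolve_left hne))
    refine ⟨haE, hea, LinearMap.ext fun v => ?_⟩
    have h5 := LinearMap.congr_fun h4 v
    simp at h5
    simp
    field_simp
    linear_combination h5
  let W₁ := W ⊔ E1
  have hinv1 : ∀ h ∈ H, ∀ u ∈ W₁, h u ∈ W₁ := by
    refine hG.invariant fun a α h u hu => ?_
    by_cases hαu : α u = 0
    · simp [hαu]
    have hα : α ≠ 0 := fun h0 => hαu (by simp [h0])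
    refine W₁.smul_mem _ ?_
    by_cases h0 : hS.π a = 0
    · rcases eq_or_ne a 0 with rfl | ha
      · exact zero_mem _
      have hk := hAeq a α h h0 ha
      obtain ⟨w, hw, e, he, rfl⟩ := mem_sup.1 hu
      rw [map_add, hk w hw, zero_add] at hαu
      exact mem_sup_right (hmeet a α h h0 hk ha e he hαu).1
    · have h3 := (hnorm a α h hα h0).1
      have h4 := add_mem (mem_sup_left (T := E1) (hS.π_mem a)) (mem_sup_right (S := W) h3)
      rwa [add_sub_cancel] at h4
  -- the radical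
  let R : Submodule (ZMod p) V :=
    { carrier := {r | r ∈ E1 ∧ ∀ e ∈ E1, Ψ' r e = 0}
      add_mem' := fun hx hy => ⟨add_mem hx.1 hy.1, fun e he => by simp [hx.2 e he, hy.2 e he]⟩
      zero_mem' := ⟨zero_mem _, fun e _ => by simp⟩
      smul_mem' := fun s x hx => ⟨E1.smul_mem s hx.1, fun e he => by simp [hx.2 e he]⟩ }
  have hinvR : ∀ h ∈ H, ∀ u ∈ R, h u ∈ R := by
    refine hG.invariant fun a α h u hu => ?_
    by_cases hαu : α u = 0
    · simp [hαu]
    by_cases hne0 : a = 0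
    · simp [hne0]
    exfalso
    have hα : α ≠ 0 := fun h0 => hαu (by simp [h0])
    by_cases h0 : hS.π a = 0
    · rcases eq_or_ne a 0 with rfl | ha
      · exact hne0 rfl
      have hk := hAeq a α h h0 ha
      obtain ⟨haE, hne, -⟩ := hmeet a α h h0 hk ha u hu.1 hαu
      exact hne (hu.2 a haE)
    · obtain ⟨hmem, k, -, hk⟩ := hnorm a α h hα h0
      have h1 := hΨanti u hu.1 _ hmem
      rw [hu.2 _ hmem, zero_add] at h1
      apply hαu
      rw [hk, LinearMap.smul_apply, LinearMap.add_apply, BA (hS.π a) u (hE1A hu.1), h1, add_zero,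
        smul_zero]
  have hR : ∀ r ∈ R, r = 0 := by
    intro r hr
    by_contra hr0
    obtain ⟨-, -, hrA, hkr, hxr⟩ := hΨM r hr.1 w₀ hw₀ hw₀0
    obtain ⟨-, g, hg, hgx⟩ := hxr
    obtain ⟨-, g', hg', hgx'⟩ := (hBW w₀ hw₀).smul_right (-1)
    have hk : g' * g = 1 := by
      refine hG.eq_one (U₁ := R) (U₂ := W₁) (fun x hx => mem_sup_right hx.1) hinvR hinv1
        (mul_mem hg' hg) ⟨fun v => ?_, fun u hu => ?_, fun u hu => ?_⟩
      · rw [LinearEquiv.mul_apply, hgx', hgx]
        have h5 : w₀ + r ∈ W₁ := add_mem (mem_sup_left hw₀) (mem_sup_right hr.1)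
        have h6 : w₀ ∈ W₁ := mem_sup_left hw₀
        rw [add_assoc, add_sub_cancel_left]
        exact add_mem (W₁.smul_mem _ h5) (W₁.smul_mem _ h6)
      · obtain ⟨w, hw, e, he, rfl⟩ := mem_sup.1 hu
        rw [LinearEquiv.mul_apply, hgx', hgx]
        have e1 : (B w₀ + Ψ' r) (w + e) = B w₀ w := by
          simp [hkr w hw, hr.2 e he, BA w₀ e (hE1A he)]
        simp only [e1, LinearMap.neg_apply, LinearMap.smul_apply, map_add, map_smul, Balt,
          BA w₀ r hrA, BA w₀ e (hE1A he), smul_eq_mul, mul_zero, add_zero]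
        convert R.smul_mem (B w₀ w) hr using 1
        module
      · rw [LinearEquiv.mul_apply, hgx', hgx]
        have e1 : (B w₀ + Ψ' r) u = 0 := by simp [BA w₀ u (hE1A hu.1), hr.2 u hu.1]
        simp [e1, BA w₀ u (hE1A hu.1)]
    obtain ⟨v, hv, hne⟩ := Bnd w₀ hw₀ hw₀0
    have h7 : (g' * g) v = v := by rw [hk]; rfl
    rw [LinearEquiv.mul_apply, hgx', hgx] at h7
    have e1 : (B w₀ + Ψ' r) v = B w₀ v := by simp [hkr v hv]
    simp only [e1, LinearMap.neg_apply, LinearMap.smul_apply, map_add, map_smul, Balt, BA w₀ r hrA,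
      smul_eq_mul, mul_zero, add_zero] at h7
    have h8 : B w₀ v • r = 0 := by
      conv_rhs => rw [← sub_self v]; arg 1; rw [← h7]
      module
    exact hr0 ((smul_eq_zero.1 h8).resolve_left hne)
  -- the complement
  let A₁ : Submodule (ZMod p) V :=
    { carrier := {v | v ∈ A ∧ ∀ e ∈ E1, Ψ' e v = 0}
      add_mem' := fun hx hy => ⟨add_mem hx.1 hy.1, fun e he => by simp [hx.2 e he, hy.2 e he]⟩
      zero_mem' := ⟨zero_mem _, fun e _ => map_zero _⟩
      smul_mem' := fun s x hx => ⟨A.smul_mem s hx.1, fun e he => by simp [hx.2 e he]⟩ }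
  have hcompl : IsCompl W₁ A₁ := by
    constructor
    · rw [Submodule.disjoint_def]
      intro x hx hxA
      obtain ⟨w, hw, e, he, rfl⟩ := mem_sup.1 hx
      have hw0 : w = 0 := Submodule.disjoint_def.1 hS.compl.disjoint w hw
        (by simpa using sub_mem hxA.1 (hE1A he))
      subst hw0
      rw [zero_add] at hxA ⊢
      refine hR e ⟨he, fun e' he' => ?_⟩
      have h1 := hΨanti e he e' he'
      rwa [hxA.2 e' he', add_zero] at h1
    · rw [codisjoint_iff, eq_top_iff]
      intro v _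
      let L : E1 →ₗ[ZMod p] Dual (ZMod p) E1 := LinearMap.compl₂ (Ψ'.comp E1.subtype) E1.subtype
      have hLi : Function.Injective L := by
        rw [← LinearMap.ker_eq_bot, Submodule.eq_bot_iff]
        intro w hw
        exact Subtype.ext (hR w ⟨w.2, fun u hu =>
          LinearMap.congr_fun (LinearMap.mem_ker.1 hw) ⟨u, hu⟩⟩)
      obtain ⟨e, hLe⟩ := (LinearMap.injective_iff_surjective_of_finrank_eq_finrank
        (Subspace.dual_finrank_eq).symm).1 hLi
          (-((Ψ'.flip (v - hS.π v)).comp E1.subtype))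
      have hsplit : v = (hS.π v + e) + (v - hS.π v - e) := by abel
      rw [hsplit]
      refine add_mem (mem_sup_left (add_mem (mem_sup_left (hS.π_mem v)) (mem_sup_right e.2)))
        (mem_sup_right ⟨sub_mem (hS.sub_π_mem v) (hE1A e.2), fun e' he' => ?_⟩)
      have h1 := LinearMap.congr_fun hLe ⟨e', he'⟩
      simp only [L, LinearMap.compl₂_apply, LinearMap.coe_comp, Function.comp_apply,
        Submodule.subtype_apply, LinearMap.neg_apply, LinearMap.flip_apply] at h1
      have h2' := hΨanti e e.2 e' he'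
      rw [map_sub]
      linear_combination h1 - h2'
  have hA1A : A₁ ≤ A := fun v hv => hv.1
  let B' : V →ₗ[ZMod p] Dual (ZMod p) V :=
    B.comp hS.π + Ψ'.comp (LinearMap.id - hS.π)
  have hB' : ∀ w ∈ W, ∀ e ∈ E1, B' (w + e) = B w + Ψ' e := fun w hw e he => by
    simp [B', hπM w e hw (hE1A he)]
  have hdecW₁ : ∀ x ∈ W₁, ∃ w ∈ W, ∃ e ∈ E1, x = w + e := fun x hx => by
    obtain ⟨w, hw, e, he, rfl⟩ := mem_sup.1 hx
    exact ⟨w, hw, e, he, rfl⟩
  have hsplit : ∀ a φ, Tr H a φ → a ≠ 0 → φ ≠ 0 →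
      (a ∈ W₁ ∧ Kills A₁ φ ∧ ∃ k : ZMod p, φ = k • B' a) ∨ (a ∈ A₁ ∧ Kills W₁ φ) := by
    intro a φ h ha hφ
    by_cases h0 : hS.π a = 0
    · have hk := hAeq a φ h h0 ha
      by_cases hex : ∃ e ∈ E1, φ e ≠ 0
      · obtain ⟨e, he, hne⟩ := hex
        obtain ⟨haE, -, heq⟩ := hmeet a φ h h0 hk ha e he hne
        refine Or.inl ⟨mem_sup_right haE, fun v hv => ?_, -(φ e / Ψ' e a), ?_⟩
        · rw [heq, LinearMap.smul_apply, hv.2 a haE, smul_zero]
        · have := hB' 0 (zero_mem _) a haE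
          rw [zero_add, map_zero, zero_add] at this
          rw [this]; exact heq
      · push Not at hex
        refine Or.inr ⟨⟨hS.mem_A_of_π h0, fun e he => ?_⟩, fun v hv => ?_⟩
        · obtain ⟨-, heq⟩ := hcomm a φ h h0 hk e he
          rw [hex e he, zero_smul, add_zero] at heq
          have h1 : Ψ' e a • φ = 0 := sub_eq_self.1 heq.symm
          exact (smul_eq_zero.1 h1).resolve_right hφ
        · obtain ⟨w, hw, e, he, rfl⟩ := mem_sup.1 hv
          rw [map_add, hk w hw, hex e he, add_zero]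
    · obtain ⟨hmem, k, -, heq⟩ := hnorm a φ h hφ h0
      have ha1 : hS.π a + (a - hS.π a) ∈ W₁ := add_mem (mem_sup_left (hS.π_mem a)) (mem_sup_right hmem)
      rw [add_sub_cancel] at ha1
      refine Or.inl ⟨ha1, fun v hv => ?_, k, ?_⟩
      · rw [heq, LinearMap.smul_apply, LinearMap.add_apply, BA _ v hv.1, hv.2 _ hmem, add_zero,
          smul_zero]
      · have := hB' _ (hS.π_mem a) _ hmem
        rw [add_sub_cancel] at this
        rw [this]; exact heq
  refine ⟨W₁, A₁, le_sup_left, hA1A, hcompl, hS.two.trans (Submodule.finrank_mono le_sup_left),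
    Or.inr ⟨B', ?_, ?_, ?_, ?_, ?_⟩, fun a φ h ha hφ => ?_⟩
  · intro x hx
    obtain ⟨w, hw, e, he, rfl⟩ := hdecW₁ x hx
    simp [hB' w hw e he, Balt, BA w e (hE1A he), hΨk e he w hw, hΨalt e he]
  · intro x hx hall
    obtain ⟨w, hw, e, he, rfl⟩ := hdecW₁ x hx
    have hw0 : w = 0 := by
      by_contra hw0
      obtain ⟨v, hv, hne⟩ := Bnd w hw hw0
      have h1 := hall v (mem_sup_left hv)
      rw [hB' w hw e he, LinearMap.add_apply, hΨk e he v hv, add_zero] at h1
      exact hne h1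
    subst hw0
    rw [zero_add]
    refine hR e ⟨he, fun e' he' => ?_⟩
    have h1 := hall e' (mem_sup_right he')
    have h3 := hB' 0 hw e he
    rw [zero_add, map_zero, zero_add] at h3
    rwa [zero_add, h3] at h1
  · intro x hx v hv
    obtain ⟨w, hw, e, he, rfl⟩ := hdecW₁ x hx
    simp [hB' w hw e he, BA w v hv.1, hv.2 e he]
  · intro x hx
    obtain ⟨w, hw, e, he, rfl⟩ := hdecW₁ x hx
    rw [hB' w hw e he]
    rcases eq_or_ne w 0 with rfl | hw0
    · rw [zero_add, map_zero, zero_add]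
      rcases eq_or_ne e 0 with rfl | he0
      · simpa using Tr.zero_left (H := H) _
      obtain ⟨u, hu, hne⟩ : ∃ u ∈ E1, Ψ' u e ≠ 0 := by
        by_contra hh
        push Not at hh
        refine he0 (hR e ⟨he, fun u hu => ?_⟩)
        have h1 := hΨanti e he u hu
        rwa [hh u hu, add_zero] at h1
      set e' := (Ψ' u e)⁻¹ • u with he'def
      have he' : e' ∈ E1 := E1.smul_mem _ hu
      have he'e : Ψ' e' e = 1 := by simp [he'def, hne]
      have he0' : e - e' ∈ E1 := sub_mem he he'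
      obtain ⟨-, -, heA', hk', hx'⟩ := hΨM e' he' (-w₀) (neg_mem hw₀) (neg_ne_zero.2 hw₀0)
      obtain ⟨-, -, heA0, hk0, hy⟩ := hΨM (e - e') he0' w₀ hw₀ hw₀0
      have h3 := hx'.conj_tr hy
      have e1 : (B (-w₀) + Ψ' e') (w₀ + (e - e')) = 1 := by
        simp [Balt, BA w₀ _ (hE1A he), BA w₀ _ heA', hk' w₀ hw₀, hΨalt e' he', he'e]
      have e2 : (B w₀ + Ψ' (e - e')) (-w₀ + e') = -1 := by
        have h4 := hΨanti e he e' he'
        simp [Balt, BA w₀ _ heA', hΨk e he w₀ hw₀, hk' w₀ hw₀, hΨalt e' he']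
        linear_combination h4 - he'e
      rw [e1, e2] at h3
      convert h3 using 1
      · module
      · ext v; simp
    · exact (hΨM e he w hw hw0).2.2.2.2
  · intro a φ h haW ha hkA
    rcases eq_or_ne φ 0 with rfl | hφ
    · exact ⟨0, (zero_smul _ _).symm⟩
    rcases hsplit a φ h ha hφ with ⟨-, -, hk⟩ | ⟨haA, -⟩
    · exact hk
    · exact absurd (Submodule.disjoint_def.1 hcompl.disjoint a haW haA) ha
  · rcases hsplit a φ h ha hφ with ⟨h1, h2', -⟩ | h1
    · exact Or.inl ⟨h1, h2'⟩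
    · exact Or.inr h1

end Std

/-- Every nontrivial transvection lies in a block. -/
theorem exists_block [Finite V] (hG : Good H) {a : V} {α : Dual (ZMod p) V} (h : Tr H a α)
    (ha : a ≠ 0) (hα : α ≠ 0) : ∃ W A, Block H W A ∧ a ∈ W ∧ Kills A α := by
  haveI : Module.Finite (ZMod p) V := Module.Finite.of_finite
  obtain ⟨b, β, hy, h1, h2⟩ := hG.exists_opposite h ha hα
  have h0 := std_of_opposite h hy h1 h2
  let S : Set (Submodule (ZMod p) V × Submodule (ZMod p) V) :=
    {q | Std H q.1 q.2 ∧ a ∈ q.1 ∧ Kills q.2 α}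
  have hne : S.Nonempty := ⟨(_, _), h0, subset_span (by simp), fun v hv => (mem_inf.1 hv).1⟩
  obtain ⟨⟨W, A⟩, ⟨hS, haW, hαA⟩, hmax⟩ :=
    Set.exists_max_image S (fun q => finrank (ZMod p) q.1) (Set.toFinite S) hne
  have hM : hS.Maximal := fun e ψ he hψ => by_contra fun hne' => by
    obtain ⟨W', A', hS', hW, hA, hlt⟩ := hS.grow he hψ hne'
    exact absurd (hmax (W', A') ⟨hS', hW haW, fun v hv => hαA v (hA hv)⟩) (not_le.2 hlt)
  rcases (lt_or_eq_of_le hS.two) with h3 | h3
  · exact ⟨W, A, hS.block_of_three hG hM h3, haW, hαA⟩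
  · obtain ⟨W₁, A₁, hW, hA, hb⟩ := hS.block_of_two hG hM h3.symm
    exact ⟨W₁, A₁, hb, hW haW, fun v hv => hαA v (hA hv)⟩

end CfsgLib.McLaughlin
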