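import Mathlib
import Cfsg.Agent.Classical.Linear.Generation

/-!
Generation of the special linear and symplectic groups of an abstract space by transvections.
-/

set_option autoImplicit false

namespace CfsgLib.McLaughlin

open Module

variable {F : Type*} [Field F] {W : Type*} [AddCommGroup W] [Module F W] [FiniteDimensional F W]

/-- A group containing every transvection contains every map of determinant one. -/
theorem mem_of_det_eq_one (G : Subgroup (W ≃ₗ[F] W))
    (h : ∀ (a : W) (φ : Dual F W) (hφ : φ a = 0), LinearEquiv.transvection hφ ∈ G)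
    (g : W ≃ₗ[F] W) (hg : LinearMap.det (g : W →ₗ[F] W) = 1) : g ∈ G := by
  classical
  let b := Module.finBasis F W
  let e := b.equivFun
  let Φ : Matrix.SpecialLinearGroup (Fin (finrank F W)) F →* (W ≃ₗ[F] W) :=
    { toFun := fun A => e ≪≫ₗ Matrix.SpecialLinearGroup.toLin' A ≪≫ₗ e.symm
      map_one' := by ext v; simp
      map_mul' := fun A B => by ext v; simp }
  have hΦ : ∀ A v, e (Φ A v) = (A : Matrix (Fin (finrank F W)) (Fin (finrank F W)) F).mulVec (e v) :=
    fun A v => (e.apply_symm_apply _).trans (Matrix.SpecialLinearGroup.toLin'_apply A (e v))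
  have hall : ∀ A, Φ A ∈ G := by
    intro A
    have htop : (G.comap Φ) = ⊤ := CfsgLib.Classical.Linear.eq_top_of_transvection_mem (by
      intro i j hij c
      rw [Subgroup.mem_comap]
      have hφ : (c • b.coord j) (b i) = 0 := by simp [hij]
      convert h (b i) (c • b.coord j) hφ using 1
      apply LinearEquiv.ext
      intro v
      apply e.injective
      rw [LinearEquiv.transvection.apply]
      rw [hΦ]
      ext k
      simp [e, Matrix.SpecialLinearGroup.transvection, Matrix.transvection, Matrix.add_mulVec,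
        Matrix.one_mulVec, Matrix.single_mulVec, Function.update, Finsupp.single_apply, eq_comm]
      intro h1 h2
      exact absurd h2 h1)
    exact Subgroup.mem_comap.1 (htop ▸ Subgroup.mem_top A)
  convert hall ⟨LinearMap.toMatrix b b (g : W →ₗ[F] W), by rw [LinearMap.det_toMatrix, hg]⟩ using 1
  ext v
  apply e.injective
  exact ((hΦ ⟨LinearMap.toMatrix b b (g : W →ₗ[F] W), by rw [LinearMap.det_toMatrix, hg]⟩ v).trans
    (LinearMap.toMatrix_mulVec_repr b b (g : W →ₗ[F] W) v)).symm

/-- A group containing every symplectic transvection contains every isometry. -/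
theorem mem_of_preserves (B : W →ₗ[F] Dual F W) (halt : ∀ w, B w w = 0)
    (hnd : ∀ w, (∀ v, B w v = 0) → w = 0) (G : Subgroup (W ≃ₗ[F] W))
    (hG : ∀ (z : W) (s : F), ∃ t ∈ G, ∀ v, t v = v + (s * B z v) • z)
    (g : W ≃ₗ[F] W) (hg : ∀ x y, B (g x) (g y) = B x y) : g ∈ G := by
  classical
  have skew : ∀ x y, B x y = -B y x := fun x y => by
    have h := halt (x + y)
    simp [halt] at h
    linear_combination h
  have hB : ∀ h ∈ G, ∀ (z : W) (s : F), (∀ v, h v = v + (s * B z v) • z) →
      ∀ x y, B (h x) (h y) = B x y := by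
    intro h _ z s hz x y
    simp [hz, halt]
    rw [skew x z]
    ring
  suffices key : ∀ (n : ℕ) (g : W ≃ₗ[F] W), (∀ x y, B (g x) (g y) = B x y) →
      ∀ P : Submodule F W, finrank F W - finrank F P ≤ n →
      (∀ w ∈ P, (∀ v ∈ P, B w v = 0) → w = 0) → (∀ w ∈ P, g w = w) → g ∈ G from
    key _ g hg ⊥ le_rfl (fun w hw _ => (Submodule.mem_bot F).1 hw)
      (fun w hw => by simp [(Submodule.mem_bot F).1 hw])
  intro n
  induction n with
  | zero =>
    intro g _ P hP _ hfix
    have hPtop : P = ⊤ := Submodule.eq_top_of_finrank_eq (by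
      have := P.finrank_le; omega)
    have : g = 1 := LinearEquiv.ext fun v => hfix v (hPtop ▸ Submodule.mem_top)
    exact this ▸ one_mem G
  | succ n ih =>
    intro g hg P hP hPnd hfix
    let Q : Submodule F W :=
      { carrier := {v | ∀ w ∈ P, B w v = 0}
        add_mem' := fun hx hy w hw => by simp [hx w hw, hy w hw]
        zero_mem' := fun w _ => by simp
        smul_mem' := fun c x hx w hw => by simp [hx w hw] }
    have hdec : ∀ v : W, ∃ q ∈ P, v - q ∈ Q := by
      intro v
      let L : P →ₗ[F] Dual F P := LinearMap.compl₂ (B.comp P.subtype) P.subtype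
      have hLi : Function.Injective L := by
        rw [← LinearMap.ker_eq_bot, Submodule.eq_bot_iff]
        intro w hw
        exact Subtype.ext (hPnd w w.2 fun u hu =>
          LinearMap.congr_fun (LinearMap.mem_ker.1 hw) ⟨u, hu⟩)
      obtain ⟨q, hq⟩ := (LinearMap.injective_iff_surjective_of_finrank_eq_finrank
        (Subspace.dual_finrank_eq).symm).1 hLi ((B.flip v).comp P.subtype)
      refine ⟨-q, neg_mem q.2, fun w hw => ?_⟩
      have h := LinearMap.congr_fun hq ⟨w, hw⟩
      simp [L] at h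
      simp [skew w (q : W), h]
    by_cases hQ : Q = ⊥
    · have : g = 1 := LinearEquiv.ext fun v => by
        obtain ⟨q, hq, hvq⟩ := hdec v
        rw [hQ, Submodule.mem_bot, sub_eq_zero] at hvq
        exact hvq ▸ hfix q hq
      exact this ▸ one_mem G
    obtain ⟨u, hu, hu0⟩ := (Submodule.ne_bot_iff Q).1 hQ
    have hQP : ∀ z ∈ Q, ∀ w ∈ P, B z w = 0 := fun z hz w hw => by rw [skew, hz w hw, neg_zero]
    obtain ⟨v, hv, huv⟩ : ∃ v ∈ Q, B u v = 1 := by
      obtain ⟨v₀, hv₀⟩ : ∃ v₀, B u v₀ ≠ 0 := by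
        by_contra h
        push Not at h
        exact hu0 (hnd u h)
      obtain ⟨q, hq, hvq⟩ := hdec v₀
      exact ⟨(B u v₀)⁻¹ • (v₀ - q), Q.smul_mem _ hvq, by simp [hQP u hu q hq, hv₀]⟩
    -- moves fixing `P`
    have step : ∀ x ∈ Q, ∀ y ∈ Q, B y x ≠ 0 → ∀ (M : Set W), (∀ m ∈ M, B (y - x) m = 0) →
        ∃ t ∈ G, t x = y ∧ (∀ a b, B (t a) (t b) = B a b) ∧ (∀ w ∈ P, t w = w) ∧
          ∀ m ∈ M, t m = m := by
      intro x hx y hy hne M hM
      obtain ⟨t, ht, htv⟩ := hG (y - x) (B y x)⁻¹
      refine ⟨t, ht, ?_, hB t ht _ _ htv, fun w hw => ?_, fun m hm => ?_⟩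
      · rw [htv, map_sub, LinearMap.sub_apply, halt, sub_zero, inv_mul_cancel₀ hne, one_smul,
          add_sub_cancel]
      · rw [htv, hQP _ (sub_mem hy hx) w hw, mul_zero, zero_smul, add_zero]
      · rw [htv, hM m hm, mul_zero, zero_smul, add_zero]
    have move : ∀ x ∈ Q, x ≠ 0 → ∀ y ∈ Q, y ≠ 0 → ∃ t ∈ G, t x = y ∧
        (∀ a b, B (t a) (t b) = B a b) ∧ ∀ w ∈ P, t w = w := by
      intro x hx hx0 y hy hy0
      by_cases hne : B y x = 0
      · have hex : ∀ z ∈ Q, z ≠ 0 → ∃ z' ∈ Q, B z' z ≠ 0 := by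
          intro z hz hz0
          by_contra h
          push Not at h
          refine hz0 (hnd z fun w => ?_)
          obtain ⟨q, hq, hwq⟩ := hdec w
          have h1 := h _ hwq
          rw [skew, neg_eq_zero, map_sub, sub_eq_zero] at h1
          rw [h1, hQP z hz q hq]
        obtain ⟨z₁, hz₁, h₁⟩ := hex x hx hx0
        obtain ⟨z₂, hz₂, h₂⟩ := hex y hy hy0
        obtain ⟨z, hz, hzx, hzy⟩ : ∃ z ∈ Q, B z x ≠ 0 ∧ B z y ≠ 0 := by
          by_cases h3 : B z₁ y = 0
          · by_cases h4 : B z₂ x = 0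
            · exact ⟨z₁ + z₂, add_mem hz₁ hz₂, by simp [h4, h₁], by simp [h3, h₂]⟩
            · exact ⟨z₂, hz₂, h4, h₂⟩
          · exact ⟨z₁, hz₁, h₁, h3⟩
        obtain ⟨t, ht, htx, htB, htP, -⟩ := step x hx z hz hzx ∅ (by simp)
        obtain ⟨t', ht', htz, htB', htP', -⟩ :=
          step z hz y hy (by rw [skew, neg_ne_zero]; exact hzy) ∅ (by simp)
        exact ⟨t' * t, mul_mem ht' ht, by rw [LinearEquiv.mul_apply, htx, htz],
          fun a b => by simp [LinearEquiv.mul_apply, htB', htB],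
          fun w hw => by rw [LinearEquiv.mul_apply, htP w hw, htP' w hw]⟩
      · obtain ⟨t, ht, htx, htB, htP, -⟩ := step x hx y hy hne ∅ (by simp)
        exact ⟨t, ht, htx, htB, htP⟩
    have hgQ : ∀ g' : W ≃ₗ[F] W, (∀ a b, B (g' a) (g' b) = B a b) → (∀ w ∈ P, g' w = w) →
        ∀ q ∈ Q, g' q ∈ Q := fun g' h1 h2 q hq w hw => by rw [← h2 w hw, h1]; exact hq w hw
    obtain ⟨t₁, ht₁, ht₁u, ht₁B, ht₁P⟩ := move (g u) (hgQ g hg hfix u hu)
      (by simpa using hu0) u hu hu0
    set v' := t₁ (g v) with hv'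
    have hv'Q : v' ∈ Q := hgQ t₁ ht₁B ht₁P _ (hgQ g hg hfix v hv)
    have huv' : B u v' = 1 := by rw [← ht₁u, hv', ht₁B, hg, huv]
    obtain ⟨t₂, ht₂, ht₂v, ht₂B, ht₂P, ht₂u⟩ : ∃ t ∈ G, t v' = v ∧
        (∀ a b, B (t a) (t b) = B a b) ∧ (∀ w ∈ P, t w = w) ∧ t u = u := by
      by_cases hne : B v v' = 0
      · have hz : v + u ∈ Q := add_mem hv hu
        obtain ⟨t, ht, htx, htB, htP, htu⟩ := step v' hv'Q (v + u) hz (by simp [hne, huv']) {u}
          (by simp [halt, skew v u, skew v' u, huv, huv'])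
        obtain ⟨t', ht', htz, htB', htP', htu'⟩ := step (v + u) hz v hv
          (by simp [halt, skew v u, huv]) {u} (by simp [halt, skew v u, huv])
        exact ⟨t' * t, mul_mem ht' ht, by rw [LinearEquiv.mul_apply, htx, htz],
          fun a b => by simp [LinearEquiv.mul_apply, htB', htB],
          fun w hw => by rw [LinearEquiv.mul_apply, htP w hw, htP' w hw],
          by rw [LinearEquiv.mul_apply, htu u rfl, htu' u rfl]⟩
      · obtain ⟨t, ht, htx, htB, htP, htu⟩ := step v' hv'Q v hv hne {u}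
          (by simp [skew v u, skew v' u, huv, huv'])
        exact ⟨t, ht, htx, htB, htP, htu u rfl⟩
    set P' := P ⊔ Submodule.span F {u, v} with hP'
    have hPlt : P < P' := by
      refine lt_of_le_of_ne le_sup_left fun h => ?_
      have huP : u ∈ P := h ▸ Submodule.mem_sup_right (Submodule.subset_span (by simp))
      exact hu0 (hPnd u huP fun w hw => hQP u hu w hw)
    have h2 := Submodule.finrank_lt_finrank_of_lt hPlt
    have h3 := P'.finrank_le
    have hg' : t₂ * t₁ * g ∈ G := by
      refine ih _ (fun a b => by simp [LinearEquiv.mul_apply, ht₂B, ht₁B, hg]) P' (by omega) ?_ ?_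
      · intro w hw hz
        obtain ⟨q, hq, r, hr, rfl⟩ := Submodule.mem_sup.1 hw
        obtain ⟨c, d, rfl⟩ := Submodule.mem_span_pair.1 hr
        have hqu : B q u = 0 := hu q hq
        have hqv : B q v = 0 := hv q hq
        have h4 := hz u (Submodule.mem_sup_right (Submodule.subset_span (by simp)))
        have h5 := hz v (Submodule.mem_sup_right (Submodule.subset_span (by simp)))
        simp [hqu, halt, skew v u, huv] at h4
        simp [hqv, halt, huv] at h5
        subst h4 h5
        simp only [zero_smul, add_zero] at hz ⊢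
        exact hPnd q hq fun w hw => hz w (Submodule.mem_sup_left hw)
      · intro w hw
        obtain ⟨q, hq, r, hr, rfl⟩ := Submodule.mem_sup.1 hw
        obtain ⟨c, d, rfl⟩ := Submodule.mem_span_pair.1 hr
        simp only [map_add, map_smul, LinearEquiv.mul_apply]
        rw [hfix q hq, ht₁P q hq, ht₂P q hq, ht₁u, ht₂u, ← hv', ht₂v]
    have := mul_mem (inv_mem (mul_mem ht₂ ht₁)) hg'
    rwa [inv_mul_cancel_left] at this

end CfsgLib.McLaughlin
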