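import Mathlib
import Cfsg.Agent.McLaughlin.Block
import Cfsg.Agent.McLaughlin.Generation

/-!
The block decomposition of a group generated by transvections with `O_p = 1`.
-/

set_option autoImplicit false

namespace CfsgLib.McLaughlin

open Module Submodule

variable {p : ℕ} [Fact p.Prime] {V : Type*} [AddCommGroup V] [Module (ZMod p) V]
  {H : Subgroup (V ≃ₗ[ZMod p] V)}

namespace Block

variable {W A : Submodule (ZMod p) V} (hb : Block H W A)
include hb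

theorem exists_ne : ∃ w ∈ W, w ≠ 0 := by
  refine (Submodule.ne_bot_iff W).1 fun h => ?_
  have h2 := hb.two
  rw [h, finrank_bot] at h2
  omega

/-- For two nonzero vectors of a block there is a transvection of the block moving both. -/
theorem exists_moving {v₁ v₂ : V} (h1 : v₁ ∈ W) (h1' : v₁ ≠ 0) (h2 : v₂ ∈ W) (h2' : v₂ ≠ 0) :
    ∃ v φ, Tr H v φ ∧ v ∈ W ∧ v ≠ 0 ∧ Kills A φ ∧ φ v₁ ≠ 0 ∧ φ v₂ ≠ 0 := by
  rcases hb.kind with hSL | ⟨B, hB⟩
  · have hA : ∀ x ∈ W, x ≠ 0 → x ∉ A := fun x hx hx0 h =>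
      hx0 (Submodule.disjoint_def.1 hb.compl.disjoint x hx h)
    obtain ⟨φ₁, k1, e1⟩ := exists_kills (hA v₁ h1 h1')
    obtain ⟨φ₂, k2, e2⟩ := exists_kills (hA v₂ h2 h2')
    obtain ⟨φ, hk, n1, n2⟩ : ∃ φ, Kills A φ ∧ φ v₁ ≠ 0 ∧ φ v₂ ≠ 0 := by
      by_cases h3 : φ₁ v₂ = 0
      · by_cases h4 : φ₂ v₁ = 0
        · exact ⟨φ₁ + φ₂, fun v hv => by simp [k1 v hv, k2 v hv], by simp [e1, h4], by simp [h3, e2]⟩
        · exact ⟨φ₂, k2, h4, by simp [e2]⟩
      · exact ⟨φ₁, k1, by simp [e1], h3⟩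
    obtain ⟨z, hz, hzs⟩ := exists_not_mem_span hb.two v₁
    have hv : z - (φ z / φ v₁) • v₁ ≠ 0 := fun h =>
      hzs (mem_span_singleton.2 ⟨_, (sub_eq_zero.1 h).symm⟩)
    have hvW : z - (φ z / φ v₁) • v₁ ∈ W := sub_mem hz (W.smul_mem _ h1)
    exact ⟨_, φ, hSL _ hvW φ hk (by simp [n1]), hvW, hv, hk, n1, n2⟩
  · have skew : ∀ x ∈ W, ∀ y ∈ W, B x y = -B y x := fun x hx y hy => by
      have h := hB.alt (x + y) (add_mem hx hy)
      simp [hB.alt x hx, hB.alt y hy] at h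
      linear_combination h
    have hex : ∀ x ∈ W, x ≠ 0 → ∃ u ∈ W, B u x ≠ 0 := by
      intro x hx hx0
      by_contra h
      push Not at h
      exact hx0 (hB.nd x hx fun u hu => by rw [skew x hx u hu, h u hu, neg_zero])
    obtain ⟨u₁, hu₁, n1⟩ := hex v₁ h1 h1'
    obtain ⟨u₂, hu₂, n2⟩ := hex v₂ h2 h2'
    obtain ⟨u, hu, m1, m2⟩ : ∃ u ∈ W, B u v₁ ≠ 0 ∧ B u v₂ ≠ 0 := by
      by_cases h3 : B u₁ v₂ = 0
      · by_cases h4 : B u₂ v₁ = 0
        · exact ⟨u₁ + u₂, add_mem hu₁ hu₂, by simp [h4, n1], by simp [h3, n2]⟩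
        · exact ⟨u₂, hu₂, h4, n2⟩
      · exact ⟨u₁, hu₁, n1, h3⟩
    exact ⟨u, B u, hB.tr u hu, hu, fun h => m1 (by simp [h]), hB.kills u hu, m1, m2⟩

/-- Each nonzero vector is the centre of a transvection of the block. -/
theorem exists_centre {v : V} (hv : v ∈ W) (hv0 : v ≠ 0) :
    ∃ φ, Tr H v φ ∧ φ ≠ 0 ∧ Kills A φ := by
  rcases hb.kind with hSL | ⟨B, hB⟩
  · obtain ⟨z, hz, hzs⟩ := exists_not_mem_span hb.two v
    have hn : z ∉ A ⊔ span (ZMod p) {v} := by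
      intro hm
      obtain ⟨x, hx, r, hr, he⟩ := mem_sup.1 hm
      have hxW : x ∈ W := by
        rw [eq_sub_of_add_eq he]
        exact sub_mem hz ((span_singleton_le_iff_mem _ _).2 hv hr)
      rw [Submodule.disjoint_def.1 hb.compl.disjoint x hxW hx, zero_add] at he
      exact hzs (he ▸ hr)
    obtain ⟨φ, hφ, hφz⟩ := exists_kills hn
    have hkA : Kills A φ := fun x hx => hφ x (mem_sup_left hx)
    exact ⟨φ, hSL v hv φ hkA (hφ v (mem_sup_right (subset_span rfl))),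
      fun h => by simp [h] at hφz, hkA⟩
  · exact ⟨B v, hB.tr v hv, fun h => hv0 (hB.nd v hv fun u _ => by simp [h]), hB.kills v hv⟩

/-- Another block lies entirely inside or entirely outside. -/
theorem inside_or_outside {W' A' : Submodule (ZMod p) V} (hb' : Block H W' A') :
    (W' ≤ W ∧ A ≤ A') ∨ (W' ≤ A ∧ W ≤ A') := by
  have hcases : ∀ v ∈ W', v ≠ 0 → v ∈ W ∨ v ∈ A := by
    intro v hv hv0
    obtain ⟨φ, h, hφ, -⟩ := hb'.exists_centre hv hv0
    exact (hb.split v φ h hv0 hφ).imp And.left And.left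
  have hno : ∀ v₁ ∈ W', ∀ v₂ ∈ W', v₁ ≠ 0 → v₂ ≠ 0 → v₁ ∈ W → v₂ ∈ A → False := by
    intro v₁ h1 v₂ h2 n1 n2 hW hA
    obtain ⟨v, φ, h, hv, hv0, -, m1, m2⟩ := hb'.exists_moving h1 n1 h2 n2
    rcases hb.split v φ h hv0 (fun hh => m1 (by simp [hh])) with ⟨-, hk⟩ | ⟨-, hk⟩
    · exact m2 (hk v₂ hA)
    · exact m1 (hk v₁ hW)
  obtain ⟨u, hu, hu0⟩ := hb'.exists_ne
  have hkey : ∀ (U U' : Submodule (ZMod p) V), (∀ v ∈ W', v ∈ U) →
      (∀ v φ, Tr H v φ → v ∈ W' → v ≠ 0 → φ ≠ 0 → Kills U' φ) → W' ≤ U ∧ U' ≤ A' := by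
    refine fun U U' h1 h2 => ⟨h1, fun x hx => ?_⟩
    set w := W'.projection A' hb'.compl x with hw
    by_cases hw0 : w = 0
    · exact (projection_apply_eq_zero_iff hb'.compl).1 hw0
    exfalso
    obtain ⟨v, φ, h, hv, hv0, hk, m, -⟩ := hb'.exists_moving (projection_apply_mem hb'.compl x) hw0
      (projection_apply_mem hb'.compl x) hw0
    have h3 := hk _ (sub_projection_mem hb'.compl x)
    rw [map_sub, h2 v φ h hv hv0 (fun hh => m (by simp [hh])) x hx, zero_sub, neg_eq_zero] at h3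
    exact m h3
  have hdisj : ∀ v, v ∈ W → v ∈ A → v = 0 := Submodule.disjoint_def.1 hb.compl.disjoint
  rcases hcases u hu hu0 with huW | huA
  · have hall : ∀ v ∈ W', v ∈ W := fun v hv => by
      rcases eq_or_ne v 0 with rfl | hv0
      · exact zero_mem W
      · exact (hcases v hv hv0).resolve_right fun hA => hno u hu v hv hu0 hv0 huW hA
    refine Or.inl (hkey W A hall fun v φ h hv hv0 hφ => ?_)
    exact ((hb.split v φ h hv0 hφ).resolve_right fun hh => hv0 (hdisj v (hall v hv) hh.1)).2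
  · have hall : ∀ v ∈ W', v ∈ A := fun v hv => by
      rcases eq_or_ne v 0 with rfl | hv0
      · exact zero_mem A
      · exact (hcases v hv hv0).resolve_left fun hW => hno v hv u hu hv0 hu0 hW huA
    refine Or.inr (hkey A W hall fun v φ h hv hv0 hφ => ?_)
    exact ((hb.split v φ h hv0 hφ).resolve_left fun hh => hv0 (hdisj v hh.1 (hall v hv))).2

theorem eq_or_apart {W' A' : Submodule (ZMod p) V} (hb' : Block H W' A') :
    (W = W' ∧ A = A') ∨ (W' ≤ A ∧ W ≤ A') := by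
  rcases hb.inside_or_outside hb' with ⟨h1, h2⟩ | h
  · rcases hb'.inside_or_outside hb with ⟨h3, h4⟩ | ⟨h3, h4⟩
    · exact Or.inl ⟨le_antisymm h3 h1, le_antisymm h2 h4⟩
    · exact Or.inr ⟨h4, h3⟩
  · exact Or.inr h

end Block

/-- The transvections of `H` inside the block `(W, A)`. -/
def blockSet (H : Subgroup (V ≃ₗ[ZMod p] V)) (W A : Submodule (ZMod p) V) :
    Set (V ≃ₗ[ZMod p] V) :=
  {g | g ∈ H ∧ ∃ (a : V) (φ : Dual (ZMod p) V),
    a ∈ W ∧ Kills A φ ∧ φ a = 0 ∧ ∀ x, g x = x + φ x • a}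

/-- The group of a block. -/
def blockGroup (H : Subgroup (V ≃ₗ[ZMod p] V)) (W A : Submodule (ZMod p) V) :
    Subgroup (V ≃ₗ[ZMod p] V) :=
  Subgroup.closure (blockSet H W A)

theorem blockGroup_le (W A : Submodule (ZMod p) V) : blockGroup H W A ≤ H :=
  (Subgroup.closure_le _).2 fun _ hg => hg.1

theorem blockGroup_fix {W A : Submodule (ZMod p) V} {g : V ≃ₗ[ZMod p] V}
    (hg : g ∈ blockGroup H W A) : ∀ v ∈ A, g v = v := by
  induction hg using Subgroup.closure_induction with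
  | mem t ht =>
    obtain ⟨-, a, φ, -, hk, -, hx⟩ := ht
    exact fun v hv => by rw [hx, hk v hv, zero_smul, add_zero]
  | one => exact fun v _ => rfl
  | mul x y _ _ h1 h2 => exact fun v hv => by rw [LinearEquiv.mul_apply, h2 v hv, h1 v hv]
  | inv x _ h1 =>
    exact fun v hv => by conv_lhs => rw [← h1 v hv]; exact LinearEquiv.symm_apply_apply x v

theorem commute_of_apart {W A W' A' : Submodule (ZMod p) V} (h1 : W' ≤ A) (h2 : W ≤ A')
    {g g' : V ≃ₗ[ZMod p] V} (hg : g ∈ blockSet H W A) (hg' : g' ∈ blockSet H W' A') :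
    g * g' = g' * g := by
  obtain ⟨-, a, φ, ha, hk, -, hx⟩ := hg
  obtain ⟨-, b, ψ, hb, hk', -, hx'⟩ := hg'
  refine LinearEquiv.ext fun v => ?_
  rw [LinearEquiv.mul_apply, LinearEquiv.mul_apply, hx', hx, hx, hx']
  simp [hk b (h1 hb), hk' a (h2 ha)]
  abel

end CfsgLib.McLaughlin
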